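import Mathlib

/-!
# Lifting matrix units along nil ideals
-/

set_option autoImplicit false
set_option linter.unusedSectionVars false
set_option linter.unusedSimpArgs false
set_option linter.unusedVariables false
set_option linter.style.haveILetI false
set_option linter.unnecessarySimpa false

namespace Cfsg.Agent.Lib.Modular

open Module

section Pair

variable {T S : Type*} [Ring T] [Ring S] (φ : T →+* S)

/-- Correcting a pair of elements, inverse to each other modulo a nil kernel. -/
theorem lift_pair (hnil : ∀ x, φ x = 0 → IsNilpotent x) {ε ε' a b : T}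
    (hε : ε * ε = ε) (hε' : ε' * ε' = ε') (ha : ε' * a * ε = a) (hb : ε * b * ε' = b)
    (h1 : φ (a * b) = φ ε') (h2 : φ (b * a) = φ ε) :
    ∃ b', ε * b' * ε' = b' ∧ b' * a = ε ∧ a * b' = ε' ∧ φ b' = φ b := by
  classical
  set j := ε - b * a with hj
  have hj0 : φ j = 0 := by
    rw [hj, map_sub, h2, sub_self]
  have hεb : ε * b = b := by
    calc ε * b = ε * (ε * b * ε') := by rw [hb]
      _ = (ε * ε) * b * ε' := by noncomm_ring
      _ = b := by rw [hε, hb]
  have hbε' : b * ε' = b := by
    calc b * ε' = (ε * b * ε') * ε' := by rw [hb]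
      _ = ε * b * (ε' * ε') := by noncomm_ring
      _ = b := by rw [hε', hb]
  have hε'a : ε' * a = a := by
    calc ε' * a = ε' * (ε' * a * ε) := by rw [ha]
      _ = (ε' * ε') * a * ε := by noncomm_ring
      _ = a := by rw [hε', ha]
  have haε : a * ε = a := by
    calc a * ε = (ε' * a * ε) * ε := by rw [ha]
      _ = ε' * a * (ε * ε) := by noncomm_ring
      _ = a := by rw [hε, ha]
  have hεj : ε * j = j := by
    rw [hj, mul_sub, hε, ← mul_assoc, hεb]
  have hjε : j * ε = j := by
    rw [hj, sub_mul, hε, mul_assoc, haε]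
  obtain ⟨m, hm⟩ := hnil j hj0
  set v := ∑ i ∈ Finset.range (m + 1), j ^ i with hv
  have hv1 : v * (1 - j) = 1 := by
    rw [hv, geom_sum_mul_neg, pow_succ, hm, zero_mul, sub_zero]
  have hcomm : Commute ε j := by
    show ε * j = j * ε
    rw [hεj, hjε]
  have hvε : ε * v = v * ε := by
    have : Commute ε v := by
      rw [hv]
      exact Commute.sum_right _ _ _ fun i _ => hcomm.pow_right i
    exact this
  have hφv : φ v = 1 := by
    have := congrArg φ hv1
    rwa [map_mul, map_sub, hj0, map_one, sub_zero, mul_one] at this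
  refine ⟨v * b, ?_, ?_, ?_, ?_⟩
  · rw [← mul_assoc, hvε, mul_assoc v, mul_assoc, hb]
  · have h3 : b * a = (1 - j) * ε := by
      rw [sub_mul, one_mul, hjε, hj]
      abel
    rw [mul_assoc, h3, ← mul_assoc, hv1, one_mul]
  · have hb'a : v * b * a = ε := by
      have h3 : b * a = (1 - j) * ε := by
        rw [sub_mul, one_mul, hjε, hj]
        abel
      rw [mul_assoc, h3, ← mul_assoc, hv1, one_mul]
    set f := a * (v * b) with hf
    have hff : f * f = f := by
      rw [hf]
      calc a * (v * b) * (a * (v * b)) = a * (v * b * a) * (v * b) := by noncomm_ring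
        _ = a * (v * b) := by rw [hb'a, haε]
    have hε'f : ε' * f = f := by
      rw [hf, ← mul_assoc, hε'a]
    have hfε' : f * ε' = f := by
      rw [hf, mul_assoc, mul_assoc, hbε']
    have hφf : φ f = φ ε' := by
      rw [hf, map_mul, map_mul, hφv, one_mul, ← map_mul, h1]
    set g := ε' - f with hg
    have hgg : g * g = g := by
      rw [hg, mul_sub, sub_mul, sub_mul, hε', hε'f, hfε', hff]
      abel
    have hg0 : φ g = 0 := by
      rw [hg, map_sub, hφf, sub_self]
    obtain ⟨k, hk⟩ := hnil g hg0
    have hpow : ∀ i : ℕ, g ^ (i + 1) = g := by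
      intro i
      induction i with
      | zero => simp
      | succ i ih => rw [pow_succ, ih, hgg]
    have hg1 : g = 0 := by
      rw [← hpow k, pow_succ, hk, zero_mul]
    exact (sub_eq_zero.1 hg1).symm
  · rw [map_mul, hφv, one_mul]

end Pair

section MatUnits

variable {T F : Type*} [Ring T] [Field F] {n : ℕ}

/-- Complete matrix units lift along a surjection with nil kernel. -/
theorem exists_matUnits [NeZero n] (φ : T →+* Matrix (Fin n) (Fin n) F)
    (hsurj : Function.Surjective φ) (hnil : ∀ x, φ x = 0 → IsNilpotent x) :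
    ∃ e : Fin n → Fin n → T, (∀ i j k l, e i j * e k l = if j = k then e i l else 0) ∧
      ∑ i, e i i = 1 ∧ ∀ i j, φ (e i j) = Matrix.single i j 1 := by
  classical
  have hE : CompleteOrthogonalIdempotents (fun i : Fin n => (Matrix.single i i (1 : F))) := by
    refine ⟨⟨fun i => ?_, fun i j hij => ?_⟩, ?_⟩
    · show Matrix.single i i (1 : F) * Matrix.single i i 1 = Matrix.single i i 1
      rw [Matrix.single_mul_single_same, one_mul]
    · exact Matrix.single_mul_single_of_ne _ _ _ _ hij _
    · exact Matrix.sum_single_one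
  obtain ⟨ε, hε, hεφ⟩ := CompleteOrthogonalIdempotents.lift_of_isNilpotent_ker φ
    (fun x hx => hnil x hx) hE (fun i => hsurj _)
  have hεφ' : ∀ i, φ (ε i) = Matrix.single i i 1 := fun i => congrFun hεφ i
  have hεε : ∀ i, ε i * ε i = ε i := fun i => hε.idem i
  have hort : ∀ i j, i ≠ j → ε i * ε j = 0 := fun i j hij => hε.ortho hij
  choose a ha using fun i : Fin n => hsurj (Matrix.single i 0 (1 : F))
  choose b hb using fun i : Fin n => hsurj (Matrix.single 0 i (1 : F))
  let a' : Fin n → T := fun i => ε i * a i * ε 0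
  let b' : Fin n → T := fun i => ε 0 * b i * ε i
  have ha' : ∀ i, φ (a' i) = Matrix.single i 0 1 := by
    intro i
    simp only [a', map_mul, hεφ', ha, Matrix.single_mul_single_same, one_mul, mul_one]
  have hb' : ∀ i, φ (b' i) = Matrix.single 0 i 1 := by
    intro i
    simp only [b', map_mul, hεφ', hb, Matrix.single_mul_single_same, one_mul, mul_one]
  have hlift : ∀ i, ∃ c, ε 0 * c * ε i = c ∧ c * a' i = ε 0 ∧ a' i * c = ε i ∧ φ c = φ (b' i) := by
    intro i
    refine lift_pair φ hnil (hεε 0) (hεε i) ?_ ?_ ?_ ?_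
    · simp only [a']
      calc ε i * (ε i * a i * ε 0) * ε 0 = (ε i * ε i) * a i * (ε 0 * ε 0) := by noncomm_ring
        _ = _ := by rw [hεε, hεε]
    · simp only [b']
      calc ε 0 * (ε 0 * b i * ε i) * ε i = (ε 0 * ε 0) * b i * (ε i * ε i) := by noncomm_ring
        _ = _ := by rw [hεε, hεε]
    · rw [map_mul, ha', hb', hεφ', Matrix.single_mul_single_same, one_mul]
    · rw [map_mul, ha', hb', hεφ', Matrix.single_mul_single_same, one_mul]
  choose c hc1 hc2 hc3 hc4 using hlift
  have hcφ : ∀ i, φ (c i) = Matrix.single 0 i 1 := fun i => (hc4 i).trans (hb' i)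
  have ha'1 : ∀ i, a' i * ε 0 = a' i := by
    intro i
    simp only [a']
    rw [mul_assoc, hεε]
  have hca : ∀ j k, j ≠ k → c j * a' k = 0 := by
    intro j k hjk
    have h1 : c j = c j * ε j := by
      conv_rhs => rw [← hc1 j]
      rw [mul_assoc, hεε, hc1]
    have h2 : a' k = ε k * a' k := by
      simp only [a']
      rw [← mul_assoc, ← mul_assoc, hεε]
    rw [h1, h2, mul_assoc, ← mul_assoc (ε j), hort j k hjk, zero_mul, mul_zero]
  refine ⟨fun i j => a' i * c j, ?_, ?_, ?_⟩
  · intro i j k l
    by_cases hjk : j = k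
    · subst hjk
      rw [if_pos rfl]
      calc a' i * c j * (a' j * c l) = a' i * (c j * a' j) * c l := by noncomm_ring
        _ = a' i * c l := by rw [hc2, ha'1]
    · rw [if_neg hjk]
      calc a' i * c j * (a' k * c l) = a' i * (c j * a' k) * c l := by noncomm_ring
        _ = 0 := by rw [hca j k hjk, mul_zero, zero_mul]
  · simp only [hc3]
    exact hε.complete
  · intro i j
    rw [map_mul, ha', hcφ, Matrix.single_mul_single_same, one_mul]

end MatUnits

end Cfsg.Agent.Lib.Modular
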