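import Mathlib
import Cfsg.Agent.Lib.Modular.MatUnits

/-!
# Algebras with small `T / [T, T]` and a unique simple module

If `T / J = M_n(F)` and `dim T / [T,T] ≤ 2`, and the centre of `T` is not `F`, then `dim T = 2 n²`:
the corner `A = ε T ε` is local with `dim N / N² ≤ 1`, hence commutative.
-/

set_option autoImplicit false
set_option linter.unusedSectionVars false
set_option linter.unusedSimpArgs false
set_option linter.unusedVariables false
set_option linter.style.haveILetI false
set_option linter.unnecessarySimpa false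

namespace Cfsg.Agent.Lib.Modular

open Module

/-- The span of the additive commutators. -/
def commSpan (F T : Type*) [Field F] [Ring T] [Algebra F T] : Submodule F T :=
  Submodule.span F {x | ∃ a b : T, x = a * b - b * a}

section Corner

variable {F T : Type*} [Field F] [Ring T] [Algebra F T] [FiniteDimensional F T] {n : ℕ} [NeZero n]

theorem single_mul_mul_single₀ (M : Matrix (Fin n) (Fin n) F) :
    Matrix.single (0 : Fin n) 0 (1 : F) * M * Matrix.single 0 0 1 =
      M 0 0 • Matrix.single (0 : Fin n) 0 (1 : F) := by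
  classical
  rw [Matrix.single_mul_mul_single, Matrix.smul_single]
  simp

/-- If all elements of a submodule commute pairwise on the generators. -/
theorem span_pow_comm (x : T) {y y' : T}
    (hy : y ∈ Submodule.span F (Set.range fun k : ℕ => x ^ (k + 1)))
    (hy' : y' ∈ Submodule.span F (Set.range fun k : ℕ => x ^ (k + 1))) : y * y' = y' * y := by
  have h1 : ∀ a : T, a ∈ Submodule.span F (Set.range fun k : ℕ => x ^ (k + 1)) →
      ∀ k : ℕ, a * x ^ (k + 1) = x ^ (k + 1) * a := by
    intro a ha k
    induction ha using Submodule.span_induction with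
    | mem a ha =>
      obtain ⟨j, rfl⟩ := ha
      simp only
      rw [← pow_add, ← pow_add, add_comm]
    | zero => simp
    | add a b _ _ ha hb => rw [add_mul, mul_add, ha, hb]
    | smul c a _ ha => rw [smul_mul_assoc, mul_smul_comm, ha]
  induction hy' using Submodule.span_induction with
  | mem a ha =>
    obtain ⟨j, rfl⟩ := ha
    exact h1 y hy j
  | zero => simp
  | add a b _ _ ha hb => rw [add_mul, mul_add, ha, hb]
  | smul c a _ ha => rw [smul_mul_assoc, mul_smul_comm, ha]

/-- Step: a one-generated radical modulo its square is generated by powers. -/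
theorem le_span_pow_of_le_sup {N : Submodule F T} (hNN : N * N ≤ N) {x : T} (hx : x ∈ N)
    (hgen : N ≤ Submodule.span F {x} ⊔ N * N) {m : ℕ} (hm : N ^ (m + 1) = ⊥) :
    N ≤ Submodule.span F (Set.range fun k : ℕ => x ^ (k + 1)) := by
  have hanti : ∀ k : ℕ, N ^ (k + 2) ≤ N ^ (k + 1) := by
    intro k
    rw [pow_succ N (k + 1), pow_succ N k, mul_assoc]
    exact mul_le_mul_right hNN _
  have hxk : ∀ k : ℕ, x ^ (k + 1) ∈ N ^ (k + 1) := by
    intro k
    induction k with
    | zero => simpa using hx
    | succ k ih =>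
      rw [pow_succ x (k + 1), pow_succ N (k + 1)]
      exact Submodule.mul_mem_mul ih hx
  have hxk' : ∀ k : ℕ, Submodule.span F {x ^ (k + 1)} ≤ N ^ (k + 1) := fun k =>
    (Submodule.span_singleton_le_iff_mem _ _).2 (hxk k)
  have hstep : ∀ k : ℕ, N ^ (k + 1) ≤ Submodule.span F {x ^ (k + 1)} ⊔ N ^ (k + 2) := by
    intro k
    induction k with
    | zero =>
      simp only [zero_add, pow_one]
      rw [pow_two]
      exact hgen
    | succ k ih =>
      rw [pow_succ N (k + 1)]
      refine (mul_le_mul' ih hgen).trans ?_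
      rw [Submodule.sup_mul, Submodule.mul_sup, Submodule.mul_sup]
      refine sup_le (sup_le ?_ ?_) (sup_le ?_ ?_)
      · refine le_sup_of_le_left ?_
        rw [Submodule.span_mul_span]
        simp only [Set.singleton_mul_singleton]
        rw [← pow_succ]
      · refine le_sup_of_le_right ?_
        calc Submodule.span F {x ^ (k + 1)} * (N * N) ≤ N ^ (k + 1) * (N * N) :=
              mul_le_mul_left (hxk' k) _
          _ = N ^ (k + 1 + 2) := by rw [← pow_two, ← pow_add]
      · refine le_sup_of_le_right ?_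
        calc N ^ (k + 2) * Submodule.span F {x} ≤ N ^ (k + 2) * N :=
              mul_le_mul_right ((Submodule.span_singleton_le_iff_mem _ _).2 hx) _
          _ = N ^ (k + 1 + 2) := by rw [pow_succ N (k + 2)]
      · refine le_sup_of_le_right ?_
        calc N ^ (k + 2) * (N * N) = N ^ (k + 2 + 2) := by rw [← pow_two, ← pow_add]
          _ ≤ N ^ (k + 2 + 1) := hanti _
  set P := Submodule.span F (Set.range fun k : ℕ => x ^ (k + 1)) with hP
  have hPk : ∀ k : ℕ, Submodule.span F {x ^ (k + 1)} ≤ P := fun k =>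
    (Submodule.span_singleton_le_iff_mem _ _).2 (Submodule.subset_span ⟨k, rfl⟩)
  have hall : ∀ k : ℕ, N ≤ P ⊔ N ^ (k + 1) := by
    intro k
    induction k with
    | zero => simp
    | succ k ih =>
      refine ih.trans (sup_le le_sup_left ?_)
      refine (hstep k).trans (sup_le ?_ le_sup_right)
      exact le_sup_of_le_left (hPk k)
  have := hall m
  rwa [hm, sup_bot_eq] at this

/-- The main corner computation. -/
theorem corner_main (φ : T →ₐ[F] Matrix (Fin n) (Fin n) F) {J : Ideal T} [J.IsTwoSided] {m : ℕ}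
    (hJm : J ^ m = ⊥) (hJ : ∀ x, φ x = 0 → x ∈ J)
    {e : Fin n → Fin n → T} (he1 : ∀ i j k l, e i j * e k l = if j = k then e i l else 0)
    (he2 : ∑ i, e i i = 1) (he3 : ∀ i j, φ (e i j) = Matrix.single i j 1)
    (hW : finrank F T ≤ finrank F (commSpan F T) + 2)
    {z : T} (hz : ∀ x, z * x = x * z) (hzF : ∀ c : F, z ≠ c • 1) :
    finrank F T = 2 * n ^ 2 := by
  classical
  set ε := e 0 0 with hε
  have hεε : ε * ε = ε := by rw [hε, he1]; simp
  have hεl : ∀ i, ε * e 0 i = e 0 i := by intro i; rw [hε, he1]; simp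
  have hεr : ∀ i, e i 0 * ε = e i 0 := by intro i; rw [hε, he1]; simp
  have he00 : ∀ i, e i 0 * e 0 i = e i i := by intro i; rw [he1]; simp
  have he0ne : ∀ i j, e 0 i * e j 0 = if i = j then ε else 0 := by
    intro i j; rw [he1]
  have hφε : φ ε = Matrix.single 0 0 1 := he3 0 0
  have hφε0 : φ ε ≠ 0 := by
    rw [hφε]
    intro h
    have := congrFun (congrFun h 0) 0
    simp at this
  have hε0 : ε ≠ 0 := by
    intro h
    rw [h, map_zero] at hφε0
    exact hφε0 rfl
  -- the corner
  let A : Submodule F T :=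
    { carrier := {t | ε * t * ε = t}
      add_mem' := by
        intro a b ha hb
        show ε * (a + b) * ε = a + b
        rw [mul_add, add_mul, ha, hb]
      zero_mem' := by
        show ε * 0 * ε = 0
        simp
      smul_mem' := by
        intro c a ha
        show ε * (c • a) * ε = c • a
        rw [mul_smul_comm, smul_mul_assoc, ha] }
  have hA : ∀ t, t ∈ A ↔ ε * t * ε = t := fun t => Iff.rfl
  have hAl : ∀ t, t ∈ A → ε * t = t := by
    intro t ht
    calc ε * t = ε * (ε * t * ε) := by rw [(hA t).1 ht]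
      _ = (ε * ε) * t * ε := by noncomm_ring
      _ = t := by rw [hεε, (hA t).1 ht]
  have hAr : ∀ t, t ∈ A → t * ε = t := by
    intro t ht
    calc t * ε = (ε * t * ε) * ε := by rw [(hA t).1 ht]
      _ = ε * t * (ε * ε) := by noncomm_ring
      _ = t := by rw [hεε, (hA t).1 ht]
  have hεA : ε ∈ A := by
    show ε * ε * ε = ε
    rw [hεε, hεε]
  have hcorner : ∀ (i j : Fin n) (t : T), e 0 i * t * e j 0 ∈ A := by
    intro i j t
    show ε * (e 0 i * t * e j 0) * ε = _
    calc ε * (e 0 i * t * e j 0) * ε = (ε * e 0 i) * t * (e j 0 * ε) := by noncomm_ring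
      _ = _ := by rw [hεl, hεr]
  -- the radical of the corner
  let N : Submodule F T := A ⊓ LinearMap.ker φ.toLinearMap
  have hN : ∀ y, y ∈ N ↔ y ∈ A ∧ φ y = 0 := fun y => Iff.rfl
  have hNN : N * N ≤ N := by
    rw [Submodule.mul_le]
    intro a ha b hb
    refine (hN _).2 ⟨?_, ?_⟩
    · show ε * (a * b) * ε = a * b
      calc ε * (a * b) * ε = (ε * a) * (b * ε) := by noncomm_ring
        _ = a * b := by rw [hAl a ha.1, hAr b hb.1]
    · rw [map_mul, ((hN a).1 ha).2, zero_mul]
  have hdec : ∀ t, t ∈ A → t - (φ t 0 0) • ε ∈ N := by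
    intro t ht
    refine (hN _).2 ⟨?_, ?_⟩
    · exact A.sub_mem ht (A.smul_mem _ hεA)
    · have h1 : φ t = (φ t 0 0) • φ ε := by
        conv_lhs => rw [← (hA t).1 ht]
        rw [map_mul, map_mul, hφε, single_mul_mul_single₀]
      rw [map_sub, map_smul, sub_eq_zero]
      exact h1
  have hmulN : ∀ (c c' : F) (y y' : T), y ∈ N → y' ∈ N →
      (c • ε + y) * (c' • ε + y') - (c' • ε + y') * (c • ε + y) = y * y' - y' * y := by
    intro c c' y y' hy hy'
    have h1 := hAl y ((hN y).1 hy).1
    have h2 := hAr y ((hN y).1 hy).1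
    have h3 := hAl y' ((hN y').1 hy').1
    have h4 := hAr y' ((hN y').1 hy').1
    simp only [add_mul, mul_add, smul_mul_assoc, mul_smul_comm, hεε, h1, h2, h3, h4, smul_smul,
      mul_comm c c', smul_add]
    abel
  have hcommA : ∀ a b, a ∈ A → b ∈ A → a * b - b * a ∈ N * N := by
    intro a b ha hb
    have h1 := hmulN (φ a 0 0) (φ b 0 0) _ _ (hdec a ha) (hdec b hb)
    simp only [add_sub_cancel] at h1
    rw [h1]
    exact Submodule.sub_mem _ (Submodule.mul_mem_mul (hdec a ha) (hdec b hb))
      (Submodule.mul_mem_mul (hdec b hb) (hdec a ha))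
  -- the retraction
  let r : T →ₗ[F] T := ∑ i, (LinearMap.mulLeft F (e 0 i)) ∘ₗ (LinearMap.mulRight F (e i 0))
  have hr : ∀ t, r t = ∑ i, e 0 i * t * e i 0 := by
    intro t
    simp only [r, LinearMap.sum_apply, LinearMap.comp_apply, LinearMap.mulLeft_apply,
      LinearMap.mulRight_apply, mul_assoc]
  have hrA : ∀ t, r t ∈ A := by
    intro t
    rw [hr]
    exact A.sum_mem fun i _ => hcorner i i t
  have hrid : ∀ t, t ∈ A → r t = t := by
    intro t ht
    rw [hr, Finset.sum_eq_single (0 : Fin n)]
    · show ε * t * ε = t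
      exact ht
    · intro i _ hi
      have h1 : e 0 i * t = 0 := by
        rw [← hAl t ht, hε, ← mul_assoc, he1, if_neg hi, zero_mul]
      rw [h1, zero_mul]
    · intro h
      exact absurd (Finset.mem_univ _) h
  have hrform : ∀ a b : T, r (a * b) - r (b * a) =
      ∑ i, ∑ j, ((e 0 i * a * e j 0) * (e 0 j * b * e i 0) -
        (e 0 j * b * e i 0) * (e 0 i * a * e j 0)) := by
    intro a b
    have h1 : ∀ c d : T, c * d = ∑ j, (c * e j 0) * (e 0 j * d) := by
      intro c d
      calc c * d = c * (∑ j, e j j) * d := by rw [he2, mul_one]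
        _ = ∑ j, c * e j j * d := by rw [Finset.mul_sum, Finset.sum_mul]
        _ = _ := by
          refine Finset.sum_congr rfl fun j _ => ?_
          rw [← he00 j]
          noncomm_ring
    have h2 : r (a * b) = ∑ i, ∑ j, (e 0 i * a * e j 0) * (e 0 j * b * e i 0) := by
      rw [hr]
      refine Finset.sum_congr rfl fun i _ => ?_
      rw [h1 a b, Finset.mul_sum, Finset.sum_mul]
      refine Finset.sum_congr rfl fun j _ => ?_
      noncomm_ring
    have h3 : r (b * a) = ∑ i, ∑ j, (e 0 j * b * e i 0) * (e 0 i * a * e j 0) := by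
      rw [hr, Finset.sum_comm]
      refine Finset.sum_congr rfl fun j _ => ?_
      rw [h1 b a, Finset.mul_sum, Finset.sum_mul]
      refine Finset.sum_congr rfl fun i _ => ?_
      noncomm_ring
    rw [h2, h3, ← Finset.sum_sub_distrib]
    refine Finset.sum_congr rfl fun i _ => ?_
    rw [← Finset.sum_sub_distrib]
  have hrcomm : ∀ a b : T, r (a * b) - r (b * a) ∈ N * N := by
    intro a b
    rw [hrform]
    exact Submodule.sum_mem _ fun i _ => Submodule.sum_mem _ fun j _ =>
      hcommA _ _ (hcorner i j a) (hcorner j i b)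
  -- dimension of the corner modulo N²
  let ρ : T →ₗ[F] T ⧸ (N * N) := (N * N).mkQ ∘ₗ r
  have hρker : commSpan F T ≤ LinearMap.ker ρ := by
    refine Submodule.span_le.2 ?_
    rintro x ⟨a, b, rfl⟩
    show ρ (a * b - b * a) = 0
    simp only [ρ, LinearMap.comp_apply, map_sub, Submodule.mkQ_apply]
    rw [← Submodule.Quotient.mk_sub, Submodule.Quotient.mk_eq_zero]
    exact hrcomm a b
  have hρrange : LinearMap.range ρ = A.map (N * N).mkQ := by
    apply le_antisymm
    · rintro _ ⟨t, rfl⟩
      exact ⟨r t, hrA t, rfl⟩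
    · rintro _ ⟨a, ha, rfl⟩
      refine ⟨a, ?_⟩
      simp only [ρ, LinearMap.comp_apply, hrid a ha]
  have hrank := LinearMap.finrank_range_add_finrank_ker ρ
  have hρ2 : finrank F (LinearMap.range ρ) ≤ 2 := by
    have := Submodule.finrank_mono hρker
    omega
  have hlt : N.map (N * N).mkQ < A.map (N * N).mkQ := by
    refine lt_of_le_of_ne (Submodule.map_mono inf_le_left) fun heq => ?_
    have h1 : (N * N).mkQ ε ∈ A.map (N * N).mkQ := ⟨ε, hεA, rfl⟩
    rw [← heq] at h1
    obtain ⟨y, hy, hyε⟩ := h1
    have h2 : y - ε ∈ N * N := by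
      rw [← Submodule.Quotient.mk_eq_zero]
      rw [Submodule.Quotient.mk_sub, sub_eq_zero]
      exact hyε
    have h3 : ε ∈ N := by
      have := N.sub_mem hy (hNN h2)
      simpa using this
    exact hφε0 ((hN ε).1 h3).2
  have hfin1 : finrank F (N.map (N * N).mkQ) ≤ 1 := by
    have := Submodule.finrank_lt_finrank_of_lt hlt
    rw [← hρrange] at this
    omega
  obtain ⟨v, hv⟩ := finrank_le_one_iff.1 hfin1
  obtain ⟨x, hxN, hxv⟩ := v.2
  have hgen : N ≤ Submodule.span F {x} ⊔ N * N := by
    intro y hy
    obtain ⟨c, hc⟩ := hv ⟨(N * N).mkQ y, ⟨y, hy, rfl⟩⟩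
    have h1 : c • (N * N).mkQ x = (N * N).mkQ y := by
      have := congrArg Subtype.val hc
      simpa [hxv] using this
    have h2 : y - c • x ∈ N * N := by
      rw [← Submodule.Quotient.mk_eq_zero, Submodule.Quotient.mk_sub, sub_eq_zero]
      exact h1.symm
    have h3 : y = c • x + (y - c • x) := by abel
    rw [h3]
    exact Submodule.add_mem_sup (Submodule.smul_mem _ _ (Submodule.mem_span_singleton_self x)) h2
  -- nilpotency
  have hNJ : ∀ k : ℕ, N ^ k ≤ (J ^ k).restrictScalars F := by
    intro k
    induction k with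
    | zero =>
      intro y _
      show y ∈ J ^ 0
      rw [J.pow_zero, Ideal.one_eq_top]
      trivial
    | succ k ih =>
      rw [pow_succ' N k, Submodule.mul_le]
      intro a ha b hb
      show a * b ∈ J ^ (k + 1)
      rw [Ideal.IsTwoSided.pow_succ]
      exact Ideal.mul_mem_mul (hJ a ((hN a).1 ha).2) (ih hb)
  have hNm : N ^ (m + 1) = ⊥ := by
    have h1 : N ^ m = ⊥ := by
      rw [eq_bot_iff]
      intro y hy
      have h2 : y ∈ J ^ m := hNJ m hy
      rw [hJm] at h2
      exact h2
    rw [pow_succ, h1, Submodule.bot_mul]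
  have hNP := le_span_pow_of_le_sup hNN hxN hgen hNm
  have hcN : ∀ y y', y ∈ N → y' ∈ N → y * y' = y' * y := fun y y' hy hy' =>
    span_pow_comm x (hNP hy) (hNP hy')
  have hcommA0 : ∀ a b, a ∈ A → b ∈ A → a * b - b * a = 0 := by
    intro a b ha hb
    have h1 := hmulN (φ a 0 0) (φ b 0 0) _ _ (hdec a ha) (hdec b hb)
    simp only [add_sub_cancel] at h1
    rw [h1, hcN _ _ (hdec a ha) (hdec b hb), sub_self]
  have hrcomm0 : ∀ a b : T, r (a * b) - r (b * a) = 0 := by
    intro a b
    rw [hrform]
    exact Finset.sum_eq_zero fun i _ => Finset.sum_eq_zero fun j _ =>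
      hcommA0 _ _ (hcorner i j a) (hcorner j i b)
  have hrker : commSpan F T ≤ LinearMap.ker r := by
    refine Submodule.span_le.2 ?_
    rintro x ⟨a, b, rfl⟩
    show r (a * b - b * a) = 0
    rw [map_sub, hrcomm0]
  have hrrange : LinearMap.range r = A := by
    apply le_antisymm
    · rintro _ ⟨t, rfl⟩
      exact hrA t
    · intro a ha
      exact ⟨a, hrid a ha⟩
  have hA2 : finrank F A ≤ 2 := by
    have h1 := LinearMap.finrank_range_add_finrank_ker r
    have h2 := Submodule.finrank_mono hrker
    rw [hrrange] at h1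
    omega
  -- `T` is a matrix ring over the corner
  let E : T ≃ₗ[F] (Fin n × Fin n → A) :=
    { toFun := fun t p => ⟨e 0 p.1 * t * e p.2 0, hcorner _ _ _⟩
      map_add' := by
        intro a b
        funext p
        apply Subtype.ext
        show e 0 p.1 * (a + b) * e p.2 0 = e 0 p.1 * a * e p.2 0 + e 0 p.1 * b * e p.2 0
        rw [mul_add, add_mul]
      map_smul' := by
        intro c a
        funext p
        apply Subtype.ext
        show e 0 p.1 * (c • a) * e p.2 0 = c • (e 0 p.1 * a * e p.2 0)
        rw [mul_smul_comm, smul_mul_assoc]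
      invFun := fun g => ∑ p : Fin n × Fin n, e p.1 0 * (g p : T) * e 0 p.2
      left_inv := by
        intro t
        show ∑ p : Fin n × Fin n, e p.1 0 * (e 0 p.1 * t * e p.2 0) * e 0 p.2 = t
        rw [Fintype.sum_prod_type]
        have h1 : ∀ i j : Fin n, e i 0 * (e 0 i * t * e j 0) * e 0 j = e i i * t * e j j := by
          intro i j
          calc e i 0 * (e 0 i * t * e j 0) * e 0 j = (e i 0 * e 0 i) * t * (e j 0 * e 0 j) := by
                noncomm_ring
            _ = _ := by rw [he00, he00]
        simp only [h1]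
        simp only [← Finset.mul_sum, ← Finset.sum_mul, he2, mul_one, one_mul]
      right_inv := by
        intro g
        funext p
        apply Subtype.ext
        show e 0 p.1 * (∑ q : Fin n × Fin n, e q.1 0 * (g q : T) * e 0 q.2) * e p.2 0 = g p
        rw [Finset.mul_sum, Finset.sum_mul, Finset.sum_eq_single p]
        · calc e 0 p.1 * (e p.1 0 * (g p : T) * e 0 p.2) * e p.2 0 =
                (e 0 p.1 * e p.1 0) * (g p : T) * (e 0 p.2 * e p.2 0) := by noncomm_ring
            _ = ε * (g p : T) * ε := by rw [he0ne, he0ne]; simp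
            _ = g p := (g p).2
        · intro q _ hq
          by_cases h1 : p.1 = q.1
          · have h2 : q.2 ≠ p.2 := by
              intro h3
              exact hq (Prod.ext h1.symm h3)
            calc e 0 p.1 * (e q.1 0 * (g q : T) * e 0 q.2) * e p.2 0 =
                  (e 0 p.1 * e q.1 0) * (g q : T) * (e 0 q.2 * e p.2 0) := by noncomm_ring
              _ = 0 := by rw [he0ne q.2 p.2, if_neg h2, mul_zero]
          · calc e 0 p.1 * (e q.1 0 * (g q : T) * e 0 q.2) * e p.2 0 =
                  (e 0 p.1 * e q.1 0) * (g q : T) * (e 0 q.2 * e p.2 0) := by noncomm_ring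
              _ = 0 := by rw [he0ne p.1 q.1, if_neg h1, zero_mul, zero_mul]
        · intro h
          exact absurd (Finset.mem_univ _) h }
  have hfin : finrank F T = n * n * finrank F A := by
    rw [E.finrank_eq, Module.finrank_pi_fintype]
    simp [Finset.sum_const, Fintype.card_prod]
  -- the corner is not the field
  have hA1 : finrank F A ≠ 1 := by
    intro h1
    have hne : (⟨ε, hεA⟩ : A) ≠ 0 := fun h => hε0 (congrArg Subtype.val h)
    have h2 := (finrank_eq_one_iff_of_nonzero' (⟨ε, hεA⟩ : A) hne).1 h1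
    obtain ⟨β, hβ⟩ := h2 ⟨ε * z * ε, by
      show ε * (ε * z * ε) * ε = ε * z * ε
      calc ε * (ε * z * ε) * ε = (ε * ε) * z * (ε * ε) := by noncomm_ring
        _ = _ := by rw [hεε]⟩
    have hβ' : β • ε = ε * z * ε := congrArg Subtype.val hβ
    apply hzF β
    calc z = (∑ i, e i i) * z := by rw [he2, one_mul]
      _ = ∑ i, e i i * z := Finset.sum_mul _ _ _
      _ = ∑ i, β • e i i := by
        refine Finset.sum_congr rfl fun i _ => ?_
        calc e i i * z = e i 0 * (ε * z * ε) * e 0 i := by
              rw [← he00 i]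
              calc e i 0 * e 0 i * z = (e i 0 * ε) * (e 0 i * z) := by rw [hεr, mul_assoc]
                _ = (e i 0 * ε) * (z * e 0 i) := by rw [hz]
                _ = (e i 0 * ε) * (z * (ε * e 0 i)) := by rw [hεl]
                _ = _ := by noncomm_ring
          _ = e i 0 * (β • ε) * e 0 i := by rw [hβ']
          _ = β • (e i 0 * ε * e 0 i) := by rw [mul_smul_comm, smul_mul_assoc]
          _ = β • e i i := by rw [hεr, he00]
      _ = β • 1 := by rw [← Finset.smul_sum, he2]
  have hA0 : finrank F A ≠ 0 := by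
    intro h0
    have h1 := Submodule.finrank_eq_zero.1 h0
    have h2 : ε ∈ (⊥ : Submodule F T) := h1 ▸ hεA
    exact hε0 h2
  have hA22 : finrank F A = 2 := by omega
  rw [hfin, hA22]
  ring

end Corner

end Cfsg.Agent.Lib.Modular
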