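import Mathlib
import Cfsg.Agent.Lib.Modular.Corner

/-!
# Symmetric algebras with a two-dimensional centre

Let `T` be a finite-dimensional symmetric algebra over an algebraically closed field, with
centre of dimension at most two, not scalar, without nontrivial central idempotents.
Then `dim T = 2 n²`.
-/

set_option autoImplicit false
set_option linter.unusedSectionVars false
set_option linter.unusedSimpArgs false
set_option linter.unusedVariables false
set_option linter.style.haveILetI false
set_option linter.unnecessarySimpa false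

namespace Cfsg.Agent.Lib.Modular

open Module

/-- The centre, as a submodule. -/
def centerSub (F T : Type*) [Field F] [Ring T] [Algebra F T] : Submodule F T where
  carrier := {z | ∀ x, z * x = x * z}
  add_mem' := by
    intro a b ha hb x
    rw [add_mul, mul_add, ha x, hb x]
  zero_mem' := by
    intro x
    simp
  smul_mem' := by
    intro c a ha x
    rw [smul_mul_assoc, mul_smul_comm, ha x]

section Main

variable {F T : Type*} [Field F] [Ring T] [Algebra F T] [FiniteDimensional F T]

/-- The codimension of the commutators is at most the dimension of the centre. -/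
theorem finrank_le_comm_add (lam : T →ₗ[F] F) (hsymm : ∀ a b, lam (a * b) = lam (b * a))
    (hnd : ∀ a, (∀ b, lam (a * b) = 0) → a = 0) :
    finrank F T ≤ finrank F (commSpan F T) + finrank F (centerSub F T) := by
  classical
  let Ψ : T →ₗ[F] Dual F T :=
    { toFun := fun z => lam ∘ₗ LinearMap.mulLeft F z
      map_add' := by
        intro a b
        ext x
        simp [add_mul]
      map_smul' := by
        intro c a
        ext x
        simp [smul_mul_assoc] }
  have hΨ : ∀ z a, Ψ z a = lam (z * a) := fun z a => rfl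
  have hinj : Function.Injective Ψ := by
    rw [injective_iff_map_eq_zero]
    intro z hz
    exact hnd z fun b => by rw [← hΨ, hz]; rfl
  have hsurj : Function.Surjective Ψ :=
    (LinearMap.injective_iff_surjective_of_finrank_eq_finrank (Subspace.dual_finrank_eq).symm).1 hinj
  have h1 := Subspace.finrank_add_finrank_dualAnnihilator_eq (commSpan F T)
  have h2 : (commSpan F T).dualAnnihilator ≤ (centerSub F T).map Ψ := by
    intro g hg
    obtain ⟨z, rfl⟩ := hsurj g
    refine ⟨z, ?_, rfl⟩
    intro a
    have h3 : z * a - a * z = 0 := by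
      refine hnd _ fun b => ?_
      have h4 := (Submodule.mem_dualAnnihilator _).1 hg (a * b - b * a)
        (Submodule.subset_span ⟨a, b, rfl⟩)
      rw [hΨ, mul_sub, map_sub] at h4
      rw [sub_mul, map_sub, mul_assoc, mul_assoc, hsymm a (z * b), mul_assoc]
      exact h4
    exact sub_eq_zero.1 h3
  have h3 := Submodule.finrank_mono h2
  have h4 := LinearMap.finrank_le_finrank_of_injective (f := Ψ.domRestrict (centerSub F T))
    (by
      intro a b hab
      exact Subtype.ext (hinj hab))
  have h5 : finrank F ((centerSub F T).map Ψ) ≤ finrank F (centerSub F T) :=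
    Submodule.finrank_map_le _ _
  omega

/-- **Brandt's core computation.** -/
theorem brandt_core [IsAlgClosed F] (lam : T →ₗ[F] F) (hsymm : ∀ a b, lam (a * b) = lam (b * a))
    (hnd : ∀ a, (∀ b, lam (a * b) = 0) → a = 0) (hZ : finrank F (centerSub F T) ≤ 2)
    {z : T} (hz : ∀ x, z * x = x * z) (hzF : ∀ c : F, z ≠ c • 1)
    (hidem : ∀ f : T, f * f = f → (∀ x, f * x = x * f) → f = 0 ∨ f = 1) :
    ∃ n : ℕ, 0 < n ∧ finrank F T = 2 * n ^ 2 := by
  classical
  have hW : finrank F T ≤ finrank F (commSpan F T) + 2 := by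
    have := finrank_le_comm_add lam hsymm hnd
    omega
  haveI : Nontrivial T := by
    by_contra h
    rw [not_nontrivial_iff_subsingleton] at h
    exact hzF 0 (Subsingleton.elim _ _)
  haveI : IsArtinianRing T := IsArtinianRing.of_finite F T
  let J : Ideal T := Ring.jacobson T
  haveI : IsSemisimpleRing (T ⧸ J) := IsSemiprimaryRing.isSemisimpleRing
  obtain ⟨m, hJm⟩ : ∃ m, J ^ m = ⊥ := IsSemiprimaryRing.isNilpotent (R := T)
  haveI : FiniteDimensional F (T ⧸ J) :=
    Module.Finite.of_surjective (Ideal.Quotient.mkₐ F J).toLinearMap Ideal.Quotient.mk_surjective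
  obtain ⟨s, d, hd, ⟨ψ⟩⟩ := IsSemisimpleRing.exists_algEquiv_pi_matrix_of_isAlgClosed F (T ⧸ J)
  let φ : T →ₐ[F] Π i, Matrix (Fin (d i)) (Fin (d i)) F :=
    ψ.toAlgHom.comp (Ideal.Quotient.mkₐ F J)
  have hφs : Function.Surjective φ := ψ.surjective.comp Ideal.Quotient.mk_surjective
  have hφJ : ∀ x, φ x = 0 ↔ x ∈ J := by
    intro x
    show ψ (Ideal.Quotient.mk J x) = 0 ↔ _
    rw [map_eq_zero_iff ψ ψ.injective, Ideal.Quotient.eq_zero_iff_mem]
  have hJnil : ∀ x, x ∈ J → IsNilpotent x := by
    intro x hx
    refine ⟨m, ?_⟩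
    have : x ^ m ∈ J ^ m := Ideal.pow_mem_pow hx m
    rw [hJm] at this
    exact this
  let τ : T →ₗ[F] (Fin s → F) := LinearMap.pi fun i =>
    (Matrix.traceLinearMap (Fin (d i)) F F) ∘ₗ (LinearMap.proj i) ∘ₗ φ.toLinearMap
  have hτ : ∀ x i, τ x i = Matrix.trace (φ x i) := fun x i => rfl
  have hτs : Function.Surjective τ := by
    intro v
    obtain ⟨x, hx⟩ := hφs (fun i => Matrix.single (0 : Fin (d i)) 0 (v i))
    refine ⟨x, funext fun i => ?_⟩
    rw [hτ, hx]
    simp [Matrix.trace_single_eq_same]
  have hτW : commSpan F T ≤ LinearMap.ker τ := by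
    refine Submodule.span_le.2 ?_
    rintro x ⟨a, b, rfl⟩
    show τ (a * b - b * a) = 0
    funext i
    rw [hτ, map_sub, map_mul, map_mul, Pi.sub_apply, Pi.mul_apply, Pi.mul_apply, Matrix.trace_sub,
      Matrix.trace_mul_comm (φ a i), sub_self]
    rfl
  have hτJ : ∀ x, x ∈ J → x ∈ LinearMap.ker τ := by
    intro x hx
    show τ x = 0
    funext i
    rw [hτ, (hφJ x).2 hx]
    simp
  have hrank := LinearMap.finrank_range_add_finrank_ker τ
  rw [LinearMap.range_eq_top.2 hτs, finrank_top, Module.finrank_fin_fun] at hrank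
  have hWk := Submodule.finrank_mono hτW
  have hs2 : s ≤ 2 := by omega
  have hs0 : s ≠ 0 := by
    rintro rfl
    have h1 : φ 1 = 0 := Subsingleton.elim _ _
    obtain ⟨k, hk⟩ := hJnil 1 ((hφJ 1).1 h1)
    rw [one_pow] at hk
    exact one_ne_zero hk
  by_cases hs : s = 2
  · exfalso
    subst hs
    have hWeq : commSpan F T = LinearMap.ker τ :=
      Submodule.eq_of_le_of_finrank_le hτW (by omega)
    have hlamW : ∀ x ∈ commSpan F T, lam x = 0 := by
      intro x hx
      induction hx using Submodule.span_induction with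
      | mem x hx =>
        obtain ⟨a, b, rfl⟩ := hx
        rw [map_sub, hsymm, sub_self]
      | zero => simp
      | add a b _ _ ha hb => rw [map_add, ha, hb, add_zero]
      | smul c a _ ha => rw [map_smul, ha, smul_zero]
    have hJ0 : ∀ x, x ∈ J → x = 0 := by
      intro x hx
      refine hnd x fun b => hlamW _ ?_
      rw [hWeq]
      exact hτJ _ (Ideal.mul_mem_right b J hx)
    have hφi : Function.Injective φ := by
      rw [injective_iff_map_eq_zero]
      intro x hx
      exact hJ0 x ((hφJ x).1 hx)
    obtain ⟨f, hf⟩ := hφs (Pi.single (0 : Fin 2) 1)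
    have hff : f * f = f := by
      apply hφi
      rw [map_mul, hf]
      funext i
      by_cases hi : i = 0
      · subst hi
        simp
      · simp [Pi.single_eq_of_ne hi]
    have hfc : ∀ x, f * x = x * f := by
      intro x
      apply hφi
      rw [map_mul, map_mul, hf]
      funext i
      by_cases hi : i = 0
      · subst hi
        simp
      · simp [Pi.single_eq_of_ne hi]
    haveI h0 : NeZero (d 0) := hd 0
    haveI h1 : NeZero (d 1) := hd 1
    rcases hidem f hff hfc with h | h
    · have h2 := congrArg (fun y => y (0 : Fin 2)) (hf.symm.trans ((congrArg φ h).trans (map_zero φ)))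
      simp at h2
    · have h2 := congrArg (fun y => y (1 : Fin 2)) (hf.symm.trans ((congrArg φ h).trans (map_one φ)))
      simp at h2
  · have hs1 : s = 1 := by omega
    subst hs1
    haveI h0 : NeZero (d 0) := hd 0
    let φ₁ : T →ₐ[F] Matrix (Fin (d 0)) (Fin (d 0)) F := (Pi.evalAlgHom F _ 0).comp φ
    have hφ₁ : ∀ x, φ₁ x = φ x 0 := fun x => rfl
    have hφ₁s : Function.Surjective φ₁ := by
      intro M
      obtain ⟨x, hx⟩ := hφs (Pi.single 0 M)
      exact ⟨x, by rw [hφ₁, hx]; simp⟩
    have hφ₁J : ∀ x, φ₁ x = 0 → x ∈ J := by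
      intro x hx
      refine (hφJ x).1 (funext fun i => ?_)
      rw [Subsingleton.elim i 0]
      exact hx
    obtain ⟨e, he1, he2, he3⟩ := exists_matUnits φ₁.toRingHom hφ₁s
      (fun x hx => hJnil x (hφ₁J x hx))
    exact ⟨d 0, Nat.pos_of_ne_zero (NeZero.ne _),
      corner_main φ₁ hJm hφ₁J he1 he2 he3 hW hz hzF⟩

end Main

end Cfsg.Agent.Lib.Modular
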