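import Mathlib
import Cfsg.Agent.Lib.Modular.Brandt
import Cfsg.Agent.Lib.Block.Osima
import Cfsg.Agent.Lib.FF.UnitRoots
import Cfsg.Agent.Lib.Char.Constituent

/-!
# The block algebra over a residue field of a valuation ring of `ℂ`
-/

set_option autoImplicit false
set_option linter.unusedSectionVars false
set_option linter.unusedSimpArgs false
set_option linter.unusedVariables false
set_option linter.style.haveILetI false
set_option linter.unnecessarySimpa false

open scoped ComplexConjugate

namespace Cfsg.Agent.Lib.Modular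

open Module Cfsg Cfsg.Agent.Lib.Block

section GenericCorner

variable {F R : Type*} [Field F] [Ring R] [Algebra F R]

/-- The corner `e R` of a central idempotent. -/
def corner (F : Type*) [Field F] {R : Type*} [Ring R] [Algebra F R] (e : R) : Submodule F R where
  carrier := {x | e * x = x}
  add_mem' := by
    intro a b ha hb
    show e * (a + b) = a + b
    rw [mul_add, ha, hb]
  zero_mem' := by
    show e * 0 = 0
    simp
  smul_mem' := by
    intro c a ha
    show e * (c • a) = c • a
    rw [mul_smul_comm, ha]

theorem mem_corner {e x : R} : x ∈ corner F e ↔ e * x = x := Iff.rfl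

/-- The ring structure on the corner. -/
@[reducible] def cornerRing (e : R) (he : e * e = e) (hc : ∀ x, e * x = x * e) :
    Ring (corner F e) :=
  { (inferInstance : AddCommGroup (corner F e)) with
    mul := fun x y => ⟨x.1 * y.1, by
      show e * (x.1 * y.1) = x.1 * y.1
      rw [← mul_assoc, x.2]⟩
    one := ⟨e, he⟩
    left_distrib := fun a b c => Subtype.ext (mul_add a.1 b.1 c.1)
    right_distrib := fun a b c => Subtype.ext (add_mul a.1 b.1 c.1)
    zero_mul := fun a => Subtype.ext (zero_mul a.1)
    mul_zero := fun a => Subtype.ext (mul_zero a.1)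
    mul_assoc := fun a b c => Subtype.ext (mul_assoc a.1 b.1 c.1)
    one_mul := fun a => Subtype.ext a.2
    mul_one := fun a => Subtype.ext (by
      show a.1 * e = a.1
      rw [← hc, a.2]) }

/-- The algebra structure on the corner. -/
@[reducible] def cornerAlg (e : R) (he : e * e = e) (hc : ∀ x, e * x = x * e) :
    @Algebra F (corner F e) _ (cornerRing e he hc).toSemiring :=
  letI := cornerRing (F := F) e he hc
  Algebra.ofModule
    (fun r x y => Subtype.ext (smul_mul_assoc r x.1 y.1))
    (fun r x y => Subtype.ext (mul_smul_comm r x.1 y.1))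

/-- **Brandt's computation on a corner.** -/
theorem brandt_corner [IsAlgClosed F] [FiniteDimensional F R] (lam : R →ₗ[F] F)
    (hsymm : ∀ a b, lam (a * b) = lam (b * a)) (hnd : ∀ a, (∀ b, lam (a * b) = 0) → a = 0)
    (e : R) (he : e * e = e) (hc : ∀ x, e * x = x * e)
    (hZ : finrank F (corner F e ⊓ centerSub F R : Submodule F R) ≤ 2)
    {z : R} (hz1 : z ∈ corner F e) (hz2 : z ∈ centerSub F R) (hzF : ∀ c : F, z ≠ c • e)
    (hidem : ∀ f : R, f ∈ corner F e → f ∈ centerSub F R → f * f = f → f = 0 ∨ f = e) :
    ∃ n : ℕ, 0 < n ∧ finrank F (corner F e) = 2 * n ^ 2 := by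
  classical
  letI iR := cornerRing (F := F) e he hc
  letI iA := cornerAlg (F := F) e he hc
  let lam' : corner F e →ₗ[F] F := lam ∘ₗ (corner F e).subtype
  have hmulval : ∀ x y : corner F e, ((x * y : corner F e) : R) = x.1 * y.1 := fun _ _ => rfl
  have hcentral : ∀ x : corner F e, (∀ y : corner F e, x * y = y * x) → x.1 ∈ centerSub F R := by
    intro x hx a
    have h1 := congrArg Subtype.val (hx ⟨e * a, by
      show e * (e * a) = e * a
      rw [← mul_assoc, he]⟩)
    have h2 : x.1 * (e * a) = (e * a) * x.1 := h1
    have h3 : x.1 * e = x.1 := by rw [← hc, x.2]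
    calc x.1 * a = (x.1 * e) * a := by rw [h3]
      _ = (e * a) * x.1 := by rw [mul_assoc, h2]
      _ = (a * e) * x.1 := by rw [hc]
      _ = a * x.1 := by rw [mul_assoc, x.2]
  have hfin : FiniteDimensional F (corner F e) := inferInstance
  have hcZ : finrank F (centerSub F (corner F e)) ≤ 2 := by
    refine le_trans ?_ hZ
    refine LinearMap.finrank_le_finrank_of_injective
      (f := { toFun := fun x => ⟨x.1.1, x.1.2, hcentral x.1 x.2⟩
              map_add' := fun _ _ => rfl
              map_smul' := fun _ _ => rfl })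
      (fun a b hab => by
        have h1 := congrArg (fun t : (corner F e ⊓ centerSub F R : Submodule F R) => (t : R)) hab
        exact Subtype.ext (Subtype.ext h1))
  have hone : ((1 : corner F e) : R) = e := rfl
  obtain ⟨n, hn, hfinrank⟩ := brandt_core (F := F) (T := corner F e) lam'
    (fun a b => hsymm a.1 b.1)
    (fun a ha => by
      apply Subtype.ext
      refine hnd a.1 fun b => ?_
      have h1 := ha ⟨e * b, by
        show e * (e * b) = e * b
        rw [← mul_assoc, he]⟩
      have h2 : lam (a.1 * (e * b)) = 0 := h1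
      have h3 : a.1 * e = a.1 := by rw [← hc, a.2]
      rwa [← mul_assoc, h3] at h2)
    hcZ (z := ⟨z, hz1⟩)
    (fun x => Subtype.ext (hz2 x.1))
    (fun c h => hzF c (by
      have := congrArg Subtype.val h
      exact this))
    (fun f hff hfc => by
      have h1 : f.1 * f.1 = f.1 := congrArg Subtype.val hff
      rcases hidem f.1 f.2 (hcentral f hfc) h1 with h | h
      · exact Or.inl (Subtype.ext h)
      · exact Or.inr (Subtype.ext h))
  exact ⟨n, hn, hfinrank⟩

end GenericCorner

section Val

variable {p : ℕ} {M : Ideal AlgInt}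

theorem exists_val (hM : IsPModular p M) :
    ∃ V : ValuationSubring ℂ, (∀ z, MemLocalRing M z → z ∈ V) ∧
      (∀ z, MemLocalIdeal M z → z ∈ V.nonunits) := by
  haveI := isPModular_isPrime hM
  let I : Ideal (localRing M) :=
    { carrier := {a | MemLocalIdeal M (a : ℂ)}
      add_mem' := fun {a b} ha hb => memLocalIdeal_add ha hb
      zero_mem' := memLocalIdeal_zero
      smul_mem' := fun c a ha => memLocalIdeal_mul_left c.2 ha }
  have hI : I ≠ ⊤ := by
    intro h
    have h1 : (1 : localRing M) ∈ I := h ▸ Submodule.mem_top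
    exact not_memLocalIdeal_one h1
  obtain ⟨V, hAV, hV⟩ := Ideal.image_subset_nonunits_valuationSubring I hI
  exact ⟨V, fun z hz => hAV hz, fun z hz =>
    hV ⟨⟨z, memLocalRing_of_memLocalIdeal hz⟩, hz, rfl⟩⟩

/-- Scaling a finite family so that all entries are integral, one equal to `1`. -/
theorem exists_scale (V : ValuationSubring ℂ) {I : Type*} [Fintype I] (c : I → ℂ)
    (hc : ∃ i, c i ≠ 0) : ∃ (a : ℂ) (i₀ : I), a * c i₀ = 1 ∧ ∀ i, a * c i ∈ V := by
  obtain ⟨i, hi⟩ := hc
  obtain ⟨i₀, -, h0⟩ := Finset.exists_max_image Finset.univ (fun j => V.valuation (c j))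
    ⟨i, Finset.mem_univ i⟩
  have hi₀ : c i₀ ≠ 0 := by
    intro h
    have h1 := h0 i (Finset.mem_univ i)
    rw [h, map_zero, le_zero_iff, map_eq_zero] at h1
    exact hi h1
  refine ⟨(c i₀)⁻¹, i₀, inv_mul_cancel₀ hi₀, fun j => ?_⟩
  rw [← ValuationSubring.valuation_le_one_iff, map_mul, map_inv₀]
  have h2 : V.valuation (c i₀) ≠ 0 := (map_ne_zero _).2 hi₀
  exact (inv_mul_le_one₀ (zero_lt_iff.2 h2)).2 (h0 j (Finset.mem_univ j))

end Val

section GroupAlg

variable {G : Type*} [Group G] [Fintype G] (V : ValuationSubring ℂ)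

/-- Inclusion of the group ring. -/
noncomputable abbrev iotaV (G : Type*) [Group G] (V : ValuationSubring ℂ) :
    MonoidAlgebra V G →+* MonoidAlgebra ℂ G := MonoidAlgebra.mapRingHom G V.subtype

/-- Reduction of the group ring. -/
noncomputable abbrev piV (G : Type*) [Group G] (V : ValuationSubring ℂ) :
    MonoidAlgebra V G →+* MonoidAlgebra (IsLocalRing.ResidueField V) G :=
  MonoidAlgebra.mapRingHom G (IsLocalRing.residue V)

theorem iotaV_coeff (z : MonoidAlgebra V G) (g : G) : (iotaV G V z).coeff g = (z.coeff g : ℂ) := by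
  simp [iotaV]

theorem piV_coeff (z : MonoidAlgebra V G) (g : G) :
    (piV G V z).coeff g = IsLocalRing.residue V (z.coeff g) := by
  simp [piV]

theorem iotaV_inj : Function.Injective (iotaV G V) := by
  intro a b h
  apply ext_coeff
  intro g
  have := congrArg (fun z => MonoidAlgebra.coeff z g) h
  simp only [iotaV_coeff] at this
  exact Subtype.ext this

theorem iotaV_smul (r : V) (x : MonoidAlgebra V G) : iotaV G V (r • x) = (r : ℂ) • iotaV G V x := by
  apply ext_coeff
  intro g
  rw [iotaV_coeff]
  show ((r • x).coeff g : ℂ) = (r : ℂ) * (iotaV G V x).coeff g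
  rw [iotaV_coeff]
  rfl

theorem piV_smul (r : V) (x : MonoidAlgebra V G) :
    piV G V (r • x) = (IsLocalRing.residue V r) • piV G V x := by
  apply ext_coeff
  intro g
  rw [piV_coeff]
  show IsLocalRing.residue V ((r • x).coeff g) = IsLocalRing.residue V r * (piV G V x).coeff g
  rw [piV_coeff, ← map_mul]
  rfl

theorem piV_surj : Function.Surjective (piV G V) := by
  intro u
  refine ⟨ofFun fun g => Function.surjInv IsLocalRing.residue_surjective (u.coeff g), ?_⟩
  apply ext_coeff
  intro g
  rw [piV_coeff, coeff_ofFun, Function.surjInv_eq IsLocalRing.residue_surjective]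

/-- An element with the same coefficients over `V`. -/
noncomputable def liftV (z : MonoidAlgebra ℂ G) (hz : ∀ g, z.coeff g ∈ V) : MonoidAlgebra V G :=
  ofFun fun g => (⟨z.coeff g, hz g⟩ : V)

theorem iota_liftV (z : MonoidAlgebra ℂ G) (hz : ∀ g, z.coeff g ∈ V) : iotaV G V (liftV V z hz) = z := by
  apply ext_coeff
  intro g
  rw [iotaV_coeff]
  unfold liftV
  rw [coeff_ofFun]

/-- Reduction preserves linear independence upwards. -/
theorem indep_of_reduction {I : Type*} [Fintype I] (y : I → MonoidAlgebra V G)
    (h : LinearIndependent (IsLocalRing.ResidueField V) (fun i => piV G V (y i))) :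
    LinearIndependent ℂ (fun i => iotaV G V (y i)) := by
  classical
  rw [Fintype.linearIndependent_iff]
  intro c hc i
  by_contra hne
  obtain ⟨a, i₀, ha, hint⟩ := exists_scale V c ⟨i, hne⟩
  let d : I → V := fun j => ⟨a * c j, hint j⟩
  have h1 : ∑ j, d j • y j = 0 := by
    apply iotaV_inj V
    rw [map_sum, map_zero]
    have h2 : ∀ j, iotaV G V (d j • y j) = a • (c j • iotaV G V (y j)) := by
      intro j
      rw [iotaV_smul, smul_smul]
    simp only [h2]
    rw [← Finset.smul_sum, hc, smul_zero]
  have h2 : ∑ j, (IsLocalRing.residue V (d j)) • piV G V (y j) = 0 := by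
    have := congrArg (piV G V) h1
    rw [map_sum, map_zero] at this
    simpa only [piV_smul] using this
  have h3 := Fintype.linearIndependent_iff.1 h _ h2 i₀
  have h4 : d i₀ = 1 := Subtype.ext ha
  rw [h4, map_one] at h3
  exact one_ne_zero h3

/-- Rank of left multiplication can only drop under reduction. -/
theorem finrank_range_le (w : MonoidAlgebra V G) :
    finrank (IsLocalRing.ResidueField V)
        (LinearMap.range (LinearMap.mulLeft (IsLocalRing.ResidueField V) (piV G V w))) ≤
      finrank ℂ (LinearMap.range (LinearMap.mulLeft ℂ (iotaV G V w))) := by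
  classical
  set W := LinearMap.range (LinearMap.mulLeft (IsLocalRing.ResidueField V) (piV G V w)) with hW
  let b := Module.finBasis (IsLocalRing.ResidueField V) W
  have hb : ∀ i, ∃ U : MonoidAlgebra V G, piV G V (w * U) = (b i : MonoidAlgebra _ G) := by
    intro i
    obtain ⟨u, hu⟩ := (b i).2
    obtain ⟨U, rfl⟩ := piV_surj V u
    exact ⟨U, by rw [map_mul]; exact hu⟩
  choose U hU using hb
  have h1 : LinearIndependent (IsLocalRing.ResidueField V) (fun i => piV G V (w * U i)) := by
    simp only [hU]
    exact b.linearIndependent.map' W.subtype (Submodule.ker_subtype W)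
  have h2 := indep_of_reduction V _ h1
  have h3 : LinearIndependent ℂ (fun i => (⟨iotaV G V (w * U i), by
      rw [map_mul]
      exact ⟨_, rfl⟩⟩ : LinearMap.range (LinearMap.mulLeft ℂ (iotaV G V w)))) :=
    LinearIndependent.of_comp (LinearMap.range (LinearMap.mulLeft ℂ (iotaV G V w))).subtype h2
  have h4 := h3.fintype_card_le_finrank
  simpa using h4

/-- Complementary idempotents. -/
theorem finrank_range_add_compl {K R : Type*} [Field K] [Ring R] [Algebra K R]
    [FiniteDimensional K R] (w : R) (hw : w * w = w) :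
    finrank K (LinearMap.range (LinearMap.mulLeft K w)) +
      finrank K (LinearMap.range (LinearMap.mulLeft K (1 - w))) = finrank K R := by
  have h1 : LinearMap.range (LinearMap.mulLeft K (1 - w)) = LinearMap.ker (LinearMap.mulLeft K w) := by
    apply le_antisymm
    · rintro _ ⟨x, rfl⟩
      show w * ((1 - w) * x) = 0
      rw [← mul_assoc, mul_sub, mul_one, hw, sub_self, zero_mul]
    · intro x hx
      have hx' : w * x = 0 := hx
      refine ⟨x, ?_⟩
      show (1 - w) * x = x
      rw [sub_mul, one_mul, hx', sub_zero]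
  rw [h1]
  exact LinearMap.finrank_range_add_finrank_ker _

theorem finrank_monoidAlgebra (K : Type*) [Field K] : finrank K (MonoidAlgebra K G) = Fintype.card G := by
  rw [Module.finrank_eq_card_basis (MonoidAlgebra.basis G K)]

/-- An idempotent and its reduction have the same rank. -/
theorem finrank_range_eq (w : MonoidAlgebra V G) (hw : w * w = w) :
    finrank (IsLocalRing.ResidueField V)
        (LinearMap.range (LinearMap.mulLeft (IsLocalRing.ResidueField V) (piV G V w))) =
      finrank ℂ (LinearMap.range (LinearMap.mulLeft ℂ (iotaV G V w))) := by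
  have h1 := finrank_range_le V w
  have h2 := finrank_range_le V (1 - w)
  rw [map_sub, map_one] at h2
  rw [map_sub, map_one] at h2
  have h3 := finrank_range_add_compl (K := IsLocalRing.ResidueField V) (piV G V w) (by
    rw [← map_mul, hw])
  have h4 := finrank_range_add_compl (K := ℂ) (iotaV G V w) (by rw [← map_mul, hw])
  rw [finrank_monoidAlgebra] at h3 h4
  omega

theorem corner_eq_range {K R : Type*} [Field K] [Ring R] [Algebra K R] (w : R) (hw : w * w = w) :
    corner K w = LinearMap.range (LinearMap.mulLeft K w) := by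
  apply le_antisymm
  · intro x hx
    exact ⟨x, hx⟩
  · rintro _ ⟨x, rfl⟩
    show w * (w * x) = w * x
    rw [← mul_assoc, hw]

open Classical in
/-- The rank of a block idempotent. -/
theorem finrank_blockElt (B : Set (IrrCharacter G)) :
    finrank ℂ (LinearMap.range (LinearMap.mulLeft ℂ (blockElt B))) =
      ∑ χ : IrrCharacter G, if χ ∈ B then charDegree (χ : G → ℂ) ^ 2 else 0 := by
  have hproj : LinearMap.IsProj (LinearMap.range (LinearMap.mulLeft ℂ (blockElt B)))
      (LinearMap.mulLeft ℂ (blockElt B)) := by
    constructor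
    · intro x
      exact ⟨x, rfl⟩
    · rintro _ ⟨x, rfl⟩
      show blockElt B * (blockElt B * x) = blockElt B * x
      rw [← mul_assoc, blockElt_mul_self]
  have h1 := hproj.trace
  have h2 := Cfsg.Agent.Lib.FF.trace_mulLeft_mulRight (blockElt B) 1
  rw [LinearMap.mulRight_one, LinearMap.comp_id, h1] at h2
  have h3 : ∀ χ : IrrCharacter G, tr (χ : G → ℂ) (blockElt B) * tr (χ : G → ℂ) 1 =
      ((if χ ∈ B then charDegree (χ : G → ℂ) ^ 2 else 0 : ℕ) : ℂ) := by
    intro χ
    rw [tr_blockElt, tr_one]
    have h4 := Cfsg.Agent.Lib.Char.map_one_eq_charDegree (Cfsg.Agent.Lib.Char.IsIrrCharacter.isCharacter χ.2)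
    split_ifs
    · rw [h4]
      push_cast
      ring
    · simp
  simp only [h3] at h2
  exact_mod_cast h2

end GroupAlg

end Cfsg.Agent.Lib.Modular
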