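import Mathlib
import Cfsg.Agent.Lib.Modular.BlockAlg

/-!
# The centre of a block algebra over a residue field
-/

set_option autoImplicit false
set_option linter.unusedSectionVars false
set_option linter.unusedSimpArgs false
set_option linter.unusedVariables false
set_option linter.style.haveILetI false
set_option linter.unnecessarySimpa false

open scoped ComplexConjugate

namespace Cfsg.Agent.Lib.Modular

open Module Cfsg Cfsg.Agent.Lib.Block

section Val

/-- The residue field of a valuation subring of `ℂ` is algebraically closed. -/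
theorem isAlgClosed_residue (V : ValuationSubring ℂ) : IsAlgClosed (IsLocalRing.ResidueField V) := by
  classical
  refine IsAlgClosed.of_exists_root _ fun p hp hirr => ?_
  have hlift : p ∈ Polynomial.lifts (IsLocalRing.residue V) := by
    rw [Polynomial.mem_lifts]
    exact Polynomial.map_surjective _ IsLocalRing.residue_surjective p
  obtain ⟨q, hq, hdeg, hqm⟩ := Polynomial.lifts_and_natDegree_eq_and_monic hlift hp
  have hdeg0 : (q.map V.subtype).degree ≠ 0 := by
    rw [Polynomial.degree_map_eq_of_injective V.subtype_injective]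
    rw [Polynomial.degree_eq_natDegree hqm.ne_zero, hdeg]
    have := hirr.natDegree_pos
    intro h
    have h2 : p.natDegree = 0 := by exact_mod_cast h
    omega
  obtain ⟨α, hα⟩ := IsAlgClosed.exists_root (q.map V.subtype) hdeg0
  have hint : IsIntegral V α := ⟨q, hqm, by
    rw [Polynomial.IsRoot, Polynomial.eval_map] at hα
    exact hα⟩
  obtain ⟨y, hy⟩ := IsIntegrallyClosed.isIntegral_iff.1 hint
  have hyv : (y : ℂ) = α := hy
  refine ⟨IsLocalRing.residue V y, ?_⟩
  have h1 : q.eval y = 0 := by
    apply V.subtype_injective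
    rw [map_zero, ← Polynomial.eval₂_hom] 
    rw [Polynomial.IsRoot, Polynomial.eval_map] at hα
    show _ = (0 : ℂ)
    rw [← hα]
    congr 1
  rw [← hq, Polynomial.eval_map, Polynomial.eval₂_hom, h1, map_zero]

end Val

section Center

variable {G : Type*} [Group G] [Fintype G] {M : Ideal AlgInt} (V : ValuationSubring ℂ)
  (hVl : ∀ z, MemLocalRing M z → z ∈ V) (hVi : ∀ z, MemLocalIdeal M z → z ∈ V.nonunits)

local notation "F" => IsLocalRing.ResidueField V

theorem iotaV_central_of (y : MonoidAlgebra V G) (h : ∀ t, y * t = t * y) :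
    IsCentralElt (iotaV G V y) := by
  intro x g
  have h1 := h (MonoidAlgebra.single x 1)
  have h2 : IsCentralElt y := (isCentralElt_iff_commute_single y).2 fun x => (h _).symm
  rw [iotaV_coeff, iotaV_coeff, h2 x g]

/-- Central lifts of central elements. -/
theorem exists_central_lift (v : MonoidAlgebra F G) (hv : ∀ x, v * x = x * v) :
    ∃ w : MonoidAlgebra V G, IsCentralElt (iotaV G V w) ∧ piV G V w = v := by
  classical
  have hv' : IsCentralElt v := isCentralElt_of_commute hv
  let s := Function.surjInv (IsLocalRing.residue_surjective (R := V))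
  let w : MonoidAlgebra V G := ofFun fun g => s (v.coeff (Quotient.out (ConjClasses.mk g)))
  refine ⟨w, ?_, ?_⟩
  · intro x g
    rw [iotaV_coeff, iotaV_coeff]
    simp only [w, coeff_ofFun]
    have h1 : ConjClasses.mk (x * g * x⁻¹) = ConjClasses.mk g :=
      ConjClasses.mk_eq_mk_iff_isConj.2 (isConj_iff.2 ⟨x⁻¹, by group⟩)
    rw [h1]
  · apply ext_coeff
    intro g
    rw [piV_coeff]
    simp only [w, coeff_ofFun]
    rw [Function.surjInv_eq (IsLocalRing.residue_surjective (R := V))]
    have h1 : IsConj (Quotient.out (ConjClasses.mk g)) g :=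
      ConjClasses.mk_eq_mk_iff_isConj.1 (Quotient.out_eq _)
    obtain ⟨c, hc⟩ := isConj_iff.1 h1
    have h2 := hv' c (Quotient.out (ConjClasses.mk g))
    rw [hc] at h2
    exact h2.symm

include hVl in
/-- The value of a central character at a class sum, as an element of `V`. -/
noncomputable def ccV (χ : IrrCharacter G) (g : G) [M.IsPrime] : V :=
  ⟨centralChar (χ : G → ℂ) g, hVl _ (memLocalRing_centralChar χ.2 g)⟩

variable [M.IsPrime]

include hVi in
theorem residue_ccV_eq {χ ψ : IrrCharacter G} (h : SameBlock M (χ : G → ℂ) (ψ : G → ℂ)) (g : G) :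
    IsLocalRing.residue V (ccV V hVl χ g) = IsLocalRing.residue V (ccV V hVl ψ g) := by
  have h1 := hVi _ (h g)
  have h2 : (ccV V hVl χ g - ccV V hVl ψ g : V) ∈ IsLocalRing.maximalIdeal V := by
    rw [← ValuationSubring.coe_mem_nonunits_iff]
    exact h1
  rw [← sub_eq_zero, ← map_sub]
  exact (IsLocalRing.residue_eq_zero_iff _).2 h2

/-- The central character with values in `V`. -/
noncomputable def omV [Fintype (ConjClasses G)] (χ : IrrCharacter G) (y : MonoidAlgebra V G) : V :=
  ∑ c : ConjClasses G, y.coeff (Quotient.out c) * ccV V hVl χ (Quotient.out c)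

theorem coe_omV [Fintype (ConjClasses G)] (χ : IrrCharacter G) {y : MonoidAlgebra V G}
    (hy : IsCentralElt (iotaV G V y)) : ((omV V hVl χ y : V) : ℂ) = om (χ : G → ℂ) (iotaV G V y) := by
  rw [om_eq_sum_conjClasses hy (Cfsg.Agent.Lib.Char.IsCharacter.isClassFunction
    (Cfsg.Agent.Lib.Char.IsIrrCharacter.isCharacter χ.2))]
  unfold omV
  rw [AddSubmonoidClass.coe_finset_sum]
  refine Finset.sum_congr rfl fun c _ => ?_
  rw [iotaV_coeff]
  rfl

include hVi in
theorem residue_omV_eq [Fintype (ConjClasses G)] {χ ψ : IrrCharacter G}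
    (h : SameBlock M (χ : G → ℂ) (ψ : G → ℂ)) (y : MonoidAlgebra V G) :
    IsLocalRing.residue V (omV V hVl χ y) = IsLocalRing.residue V (omV V hVl ψ y) := by
  unfold omV
  rw [map_sum, map_sum]
  refine Finset.sum_congr rfl fun c _ => ?_
  rw [map_mul, map_mul, residue_ccV_eq V hVl hVi h]

end Center

section CentralList

variable {G : Type*} [Group G] [Fintype G]

theorem om_list_prod (ψ : IrrCharacter G) (L : List (MonoidAlgebra ℂ G))
    (hL : ∀ z ∈ L, IsCentralElt z) :
    IsCentralElt L.prod ∧ om (ψ : G → ℂ) L.prod = (L.map (om (ψ : G → ℂ))).prod := by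
  induction L with
  | nil =>
    refine ⟨by simpa using isCentralElt_one, ?_⟩
    simpa using om_one ψ.2
  | cons a L ih =>
    obtain ⟨h1, h2⟩ := ih fun z hz => hL z (List.mem_cons_of_mem _ hz)
    have ha := hL a List.mem_cons_self
    refine ⟨?_, ?_⟩
    · rw [List.prod_cons]
      exact isCentralElt_mul ha h1
    · rw [List.prod_cons, om_mul ψ.2 ha, h2, List.map_cons, List.prod_cons]

end CentralList

section Idem

variable {K R : Type*} [Field K] [Ring R] [Algebra K R]

/-- Central idempotents of a corner with a nilpotent scalar shift are trivial. -/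
theorem idem_of_nil {e f : R} (he : e * e = e) (hc : ∀ x, e * x = x * e) (hfe : e * f = f)
    (hf : f * f = f) (hfc : ∀ x, f * x = x * f) {α : K} {k : ℕ} (hk : (f - α • e) ^ k = 0) :
    f = 0 ∨ f = e := by
  have hpow : ∀ (g : R), g * g = g → ∀ i : ℕ, g ^ (i + 1) = g := by
    intro g hg i
    induction i with
    | zero => simp
    | succ i ih => rw [pow_succ, ih, hg]
  by_cases h0 : α = 0
  · left
    subst h0
    simp only [zero_smul, sub_zero] at hk
    rw [← hpow f hf k, pow_succ, hk, zero_mul]
  by_cases h1 : α = 1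
  · right
    subst h1
    simp only [one_smul] at hk
    set g := e - f with hg
    have hfe' : f * e = f := by rw [← hc, hfe]
    have hgg : g * g = g := by
      rw [hg, mul_sub, sub_mul, sub_mul, he, hfe, hfe', hf]
      abel
    have hgk : g ^ k = 0 := by
      have : g = -(f - e) := by rw [hg]; abel
      rw [this, neg_pow, hk, mul_zero]
    have hg0 : g = 0 := by
      rw [← hpow g hgg k, pow_succ, hgk, zero_mul]
    exact (sub_eq_zero.1 hg0).symm
  · left
    have hfe' : f * e = f := by rw [← hc, hfe]
    set u := f - α • e with hu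
    set u' := f - (1 - α) • e with hu'
    have hfe_comm : Commute f e := by
      show f * e = e * f
      rw [hfe', hfe]
    have hcomm : Commute u u' :=
      ((Commute.refl f).sub_right (hfe_comm.smul_right _)).sub_left
        ((hfe_comm.symm.sub_right ((Commute.refl e).smul_right _)).smul_left _)
    have hprod : u * u' = (α * (1 - α)) • e := by
      calc u * u' = f * f - f * ((1 - α) • e) - ((α • e) * f - (α • e) * ((1 - α) • e)) := by
            rw [hu, hu', mul_sub, sub_mul, sub_mul]
            abel
        _ = f - (1 - α) • f - (α • f - (α * (1 - α)) • e) := by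
            rw [hf, mul_smul_comm, hfe', smul_mul_assoc, hfe, smul_mul_assoc, mul_smul_comm, he,
              smul_smul]
        _ = (α * (1 - α)) • e := by
            rw [sub_smul, one_smul]
            abel
    have h2 : (u * u') ^ k = 0 := by
      rw [hcomm.mul_pow, hk, zero_mul]
    rw [hprod, smul_pow] at h2
    have h3 : e ^ k = 0 := by
      have hne : (α * (1 - α)) ^ k ≠ 0 := pow_ne_zero _ (mul_ne_zero h0 (sub_ne_zero.2 (Ne.symm h1)))
      exact (smul_eq_zero.1 h2).resolve_left hne
    have h4 : e = 0 := by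
      rw [← hpow e he k, pow_succ, h3, zero_mul]
    rw [← hfe, h4, zero_mul]

end Idem

section Block

variable {G : Type*} [Group G] [Fintype G] {p : ℕ} {M : Ideal AlgInt} (V : ValuationSubring ℂ)
  (hVl : ∀ z, MemLocalRing M z → z ∈ V) (hVi : ∀ z, MemLocalIdeal M z → z ∈ V.nonunits)
  [M.IsPrime] [Fintype (ConjClasses G)] {B : Set (IrrCharacter G)}
  (hE : ∀ g, (blockElt B).coeff g ∈ V)

local notation "F" => IsLocalRing.ResidueField V

/-- The block idempotent over `V`. -/
noncomputable abbrev eHat (hE : ∀ g, (blockElt B).coeff g ∈ V) : MonoidAlgebra V G :=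
  liftV V (blockElt B) hE

theorem iota_eHat : iotaV G V (eHat V hE) = blockElt B := iota_liftV V _ hE

theorem eHat_idem : eHat V hE * eHat V hE = eHat V hE := by
  apply iotaV_inj V
  rw [map_mul, iota_eHat, blockElt_mul_self]

theorem eHat_comm (t : MonoidAlgebra V G) : eHat V hE * t = t * eHat V hE := by
  apply iotaV_inj V
  rw [map_mul, map_mul, iota_eHat]
  exact isCentralElt_commute (isCentralElt_blockElt B) _

theorem eBar_idem : piV G V (eHat V hE) * piV G V (eHat V hE) = piV G V (eHat V hE) := by
  rw [← map_mul, eHat_idem]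

theorem eBar_comm (x : MonoidAlgebra F G) : piV G V (eHat V hE) * x = x * piV G V (eHat V hE) := by
  obtain ⟨t, rfl⟩ := piV_surj V x
  rw [← map_mul, ← map_mul, eHat_comm]

/-- The `F`-centre of the block has dimension at most `k(B)`. -/
theorem finrank_center_le :
    finrank F (corner F (piV G V (eHat V hE)) ⊓ centerSub F (MonoidAlgebra F G) :
      Submodule F (MonoidAlgebra F G)) ≤ Nat.card B := by
  classical
  set ZZ : Submodule F (MonoidAlgebra F G) := corner F (piV G V (eHat V hE)) ⊓ centerSub F _ with hZZ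
  let b := Module.finBasis F ZZ
  have hb : ∀ i, ∃ y : MonoidAlgebra V G, piV G V y = (b i : MonoidAlgebra F G) ∧
      iotaV G V y ∈ Submodule.span ℂ (Set.range fun χ : B => blockElt ({(χ : IrrCharacter G)} : Set _)) := by
    intro i
    obtain ⟨w, hw1, hw2⟩ := exists_central_lift V (b i : MonoidAlgebra F G) (b i).2.2
    refine ⟨eHat V hE * w, ?_, ?_⟩
    · rw [map_mul, hw2]
      exact (b i).2.1
    · rw [map_mul, iota_eHat]
      have hz : IsCentralElt (blockElt B * iotaV G V w) :=
        isCentralElt_mul (isCentralElt_blockElt B) hw1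
      have h1 : blockElt B * iotaV G V w =
          ∑ χ : IrrCharacter G, if χ ∈ B then om (χ : G → ℂ) (iotaV G V w) •
            blockElt ({χ} : Set (IrrCharacter G)) else 0 := by
        refine central_ext_om hz (isCentralElt_sum _ _ fun χ _ => ?_) fun ψ => ?_
        · split_ifs
          · exact isCentralElt_smul _ (isCentralElt_blockElt _)
          · exact isCentralElt_zero
        · rw [om_mul ψ.2 (isCentralElt_blockElt B), om_blockElt, om_sum]
          have h2 : ∀ χ : IrrCharacter G, om (ψ : G → ℂ) (if χ ∈ B then om (χ : G → ℂ) (iotaV G V w) •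
              blockElt ({χ} : Set (IrrCharacter G)) else 0) =
              if χ = ψ then (if ψ ∈ B then om (ψ : G → ℂ) (iotaV G V w) else 0) else 0 := by
            intro χ
            by_cases h3 : χ ∈ B
            · rw [if_pos h3]
              by_cases h4 : χ = ψ
              · subst h4
                rw [if_pos rfl, if_pos h3, om_smul, om_blockElt, if_pos (Set.mem_singleton _), mul_one]
              · rw [if_neg h4, om_smul, om_blockElt,
                  if_neg (fun h => h4 (Set.mem_singleton_iff.1 h).symm), mul_zero]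
            · rw [if_neg h3, om_zero]
              by_cases h4 : χ = ψ
              · subst h4
                simp [h3]
              · simp [h4]
          simp only [h2, Finset.sum_ite_eq', Finset.mem_univ, if_true]
          split_ifs <;> simp
      rw [h1]
      refine Submodule.sum_mem _ fun χ _ => ?_
      split_ifs with h3
      · exact Submodule.smul_mem _ _ (Submodule.subset_span ⟨⟨χ, h3⟩, rfl⟩)
      · exact Submodule.zero_mem _
  choose y hy1 hy2 using hb
  have h1 : LinearIndependent F (fun i => piV G V (y i)) := by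
    simp only [hy1]
    exact b.linearIndependent.map' ZZ.subtype (Submodule.ker_subtype ZZ)
  have h2 := indep_of_reduction V _ h1
  set L := Submodule.span ℂ (Set.range fun χ : B => blockElt ({(χ : IrrCharacter G)} : Set _)) with hL
  have h3 : LinearIndependent ℂ (fun i => (⟨iotaV G V (y i), hy2 i⟩ : L)) :=
    LinearIndependent.of_comp L.subtype h2
  have h4 := h3.fintype_card_le_finrank
  have h5 : finrank ℂ L ≤ Fintype.card B := finrank_range_le_card _
  rw [Nat.card_eq_fintype_card]
  simp only [Fintype.card_fin] at h4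
  exact h4.trans h5

include hVl hVi in
/-- Central elements of the block algebra are scalar plus nilpotent. -/
theorem exists_nil_shift (hB : IsPBlock M B) (v : MonoidAlgebra F G)
    (hv1 : v ∈ corner F (piV G V (eHat V hE))) (hv2 : v ∈ centerSub F (MonoidAlgebra F G)) :
    ∃ (α : F) (k : ℕ), (v - α • piV G V (eHat V hE)) ^ k = 0 := by
  classical
  obtain ⟨w, hw1, hw2⟩ := exists_central_lift V v hv2
  set y := eHat V hE * w with hy
  have hyc : IsCentralElt (iotaV G V y) := by
    rw [hy, map_mul, iota_eHat]
    exact isCentralElt_mul (isCentralElt_blockElt B) hw1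
  have hpy : piV G V y = v := by
    rw [hy, map_mul, hw2]
    exact hv1
  obtain ⟨χ₀, hχ₀⟩ := IsPBlock_nonempty hB
  set α := IsLocalRing.residue V (omV V hVl χ₀ y) with hα
  have hres : ∀ χ ∈ B, IsLocalRing.residue V (omV V hVl χ y) = α := fun χ hχ =>
    residue_omV_eq V hVl hVi (sameBlock_of_mem hB hχ hχ₀) y
  set L := (B.toFinite.toFinset).toList with hL
  have hmemL : ∀ χ, χ ∈ L ↔ χ ∈ B := by
    intro χ
    rw [hL, Finset.mem_toList, Set.Finite.mem_toFinset]
  set X : MonoidAlgebra V G :=
    (L.map fun χ => y - omV V hVl χ y • eHat V hE).prod with hX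
  have hX0 : X = 0 := by
    apply iotaV_inj V
    rw [map_zero, hX, map_list_prod, List.map_map]
    set L' := L.map ((iotaV G V) ∘ fun χ => y - omV V hVl χ y • eHat V hE) with hL'
    have hcen : ∀ z ∈ L', IsCentralElt z := by
      intro z hz
      obtain ⟨χ, -, rfl⟩ := List.mem_map.1 hz
      simp only [Function.comp_apply, map_sub, iotaV_smul, iota_eHat]
      exact isCentralElt_sub hyc (isCentralElt_smul _ (isCentralElt_blockElt B))
    have hval : ∀ χ ψ : IrrCharacter G, om (ψ : G → ℂ)
        (((iotaV G V) ∘ fun χ => y - omV V hVl χ y • eHat V hE) χ) =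
        om (ψ : G → ℂ) (iotaV G V y) - (omV V hVl χ y : ℂ) * om (ψ : G → ℂ) (blockElt B) := by
      intro χ ψ
      simp only [Function.comp_apply, map_sub, iotaV_smul, iota_eHat]
      rw [om_sub, om_smul]
    refine central_ext_om (om_list_prod χ₀ L' hcen).1 isCentralElt_zero fun ψ => ?_
    rw [(om_list_prod ψ L' hcen).2, om_zero]
    apply List.prod_eq_zero
    by_cases hψ : ψ ∈ B
    · refine List.mem_map.2 ⟨_, List.mem_map.2 ⟨ψ, (hmemL ψ).2 hψ, rfl⟩, ?_⟩
      rw [hval, om_blockElt_of_mem hψ, mul_one, coe_omV V hVl ψ hyc, sub_self]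
    · refine List.mem_map.2 ⟨_, List.mem_map.2 ⟨χ₀, (hmemL χ₀).2 hχ₀, rfl⟩, ?_⟩
      have h0 : om (ψ : G → ℂ) (iotaV G V y) = 0 := by
        rw [hy, map_mul, iota_eHat, om_mul ψ.2 (isCentralElt_blockElt B),
          om_blockElt_of_notMem hψ, zero_mul]
      rw [hval, om_blockElt_of_notMem hψ, mul_zero, h0, sub_zero]
  refine ⟨α, L.length, ?_⟩
  have h1 := congrArg (piV G V) hX0
  rw [hX, map_zero, map_list_prod, List.map_map] at h1
  have h2 : L.map ((piV G V) ∘ fun χ => y - omV V hVl χ y • eHat V hE) =
      L.map fun _ => v - α • piV G V (eHat V hE) := by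
    refine List.map_congr_left fun χ hχ => ?_
    simp only [Function.comp_apply, map_sub, piV_smul, hpy]
    rw [hres χ ((hmemL χ).1 hχ)]
  rw [h2, List.map_const', List.prod_replicate] at h1
  exact h1

include hVl hVi in
/-- Central idempotents of the block algebra are trivial. -/
theorem idem_trivial (hB : IsPBlock M B) (f : MonoidAlgebra F G)
    (hf1 : f ∈ corner F (piV G V (eHat V hE))) (hf2 : f ∈ centerSub F (MonoidAlgebra F G))
    (hff : f * f = f) : f = 0 ∨ f = piV G V (eHat V hE) := by
  obtain ⟨α, k, hk⟩ := exists_nil_shift V hVl hVi hE hB f hf1 hf2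
  exact idem_of_nil (K := F) (eBar_idem V hE) (eBar_comm V hE) hf1 hff hf2 hk

include hVl hVi in
/-- If a block has two different members, the block centre is not scalar. -/
theorem exists_nonscalar {χ₁ χ₂ : IrrCharacter G} (h₁ : χ₁ ∈ B) (h₂ : χ₂ ∈ B) (hne : χ₁ ≠ χ₂) :
    ∃ z : MonoidAlgebra F G, z ∈ corner F (piV G V (eHat V hE)) ∧
      z ∈ centerSub F (MonoidAlgebra F G) ∧ ∀ c : F, z ≠ c • piV G V (eHat V hE) := by
  classical
  set δ : G → ℂ := fun g => centralChar (χ₂ : G → ℂ) g - centralChar (χ₁ : G → ℂ) g with hδ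
  have hcf₁ := Cfsg.Agent.Lib.Char.IsCharacter.isClassFunction
    (Cfsg.Agent.Lib.Char.IsIrrCharacter.isCharacter χ₁.2)
  have hcf₂ := Cfsg.Agent.Lib.Char.IsCharacter.isClassFunction
    (Cfsg.Agent.Lib.Char.IsIrrCharacter.isCharacter χ₂.2)
  have hdiff : ∀ {z : MonoidAlgebra ℂ G}, IsCentralElt z → om (χ₂ : G → ℂ) z - om (χ₁ : G → ℂ) z =
      ∑ c : ConjClasses G, z.coeff (Quotient.out c) * δ (Quotient.out c) := by
    intro z hz
    rw [om_eq_sum_conjClasses hz hcf₁, om_eq_sum_conjClasses hz hcf₂, ← Finset.sum_sub_distrib]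
    refine Finset.sum_congr rfl fun c _ => ?_
    rw [hδ]
    ring
  have hex : ∃ g, δ g ≠ 0 := by
    by_contra hall
    push Not at hall
    have h1 := hdiff (isCentralElt_blockElt ({χ₁} : Set (IrrCharacter G)))
    have h2 : ∑ c : ConjClasses G, (blockElt ({χ₁} : Set (IrrCharacter G))).coeff (Quotient.out c) *
        δ (Quotient.out c) = 0 := Finset.sum_eq_zero fun c _ => by rw [hall, mul_zero]
    rw [h2, om_blockElt, om_blockElt, if_pos (Set.mem_singleton _),
      if_neg (fun h => hne (Set.mem_singleton_iff.1 h).symm)] at h1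
    simp at h1
  obtain ⟨a, g₀, ha, hint⟩ := exists_scale V δ hex
  -- the class sum over `V`
  have hcs : ∀ g, (classSum g₀).coeff g ∈ V := by
    intro g
    rw [coeff_classSum]
    split_ifs
    · exact V.one_mem
    · exact V.zero_mem
  set K := liftV V (classSum g₀) hcs with hK
  have hιK : iotaV G V K = classSum g₀ := iota_liftV V _ hcs
  set w := eHat V hE * K with hw
  have hιw : iotaV G V w = blockElt B * classSum g₀ := by
    rw [hw, map_mul, iota_eHat, hιK]
  have hwc : IsCentralElt (iotaV G V w) := by
    rw [hιw]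
    exact isCentralElt_mul (isCentralElt_blockElt B) (isCentralElt_classSum g₀)
  have hw_comm : ∀ t : MonoidAlgebra V G, w * t = t * w := by
    intro t
    apply iotaV_inj V
    rw [map_mul (iotaV G V) w t, map_mul (iotaV G V) t w]
    exact isCentralElt_commute hwc _
  refine ⟨piV G V w, ?_, ?_, ?_⟩
  · show piV G V (eHat V hE) * piV G V w = piV G V w
    rw [← map_mul, hw, ← mul_assoc, eHat_idem]
  · intro x
    obtain ⟨t, rfl⟩ := piV_surj V x
    rw [← map_mul, ← map_mul, hw_comm]
  · intro c hc
    obtain ⟨c', rfl⟩ := IsLocalRing.residue_surjective c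
    set x := w - c' • eHat V hE with hx
    have hπx : piV G V x = 0 := by
      rw [hx, map_sub, piV_smul, hc, sub_self]
    have hιx : iotaV G V x = blockElt B * classSum g₀ - (c' : ℂ) • blockElt B := by
      rw [hx, map_sub, iotaV_smul, iota_eHat, hιw]
    have hxc : IsCentralElt (iotaV G V x) := by
      rw [hιx]
      exact isCentralElt_sub (isCentralElt_mul (isCentralElt_blockElt B) (isCentralElt_classSum g₀))
        (isCentralElt_smul _ (isCentralElt_blockElt B))
    have hom : ∀ χ ∈ B, om (χ : G → ℂ) (iotaV G V x) = centralChar (χ : G → ℂ) g₀ - c' := by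
      intro χ hχ
      have hcf := Cfsg.Agent.Lib.Char.IsCharacter.isClassFunction
        (Cfsg.Agent.Lib.Char.IsIrrCharacter.isCharacter χ.2)
      rw [hιx, om_sub, om_smul, om_mul χ.2 (isCentralElt_blockElt B), om_blockElt_of_mem hχ,
        om_classSum hcf, one_mul, mul_one]
    have h1 := hdiff hxc
    rw [hom χ₂ h₂, hom χ₁ h₁] at h1
    have h2 : δ g₀ = ∑ c : ConjClasses G, (iotaV G V x).coeff (Quotient.out c) * δ (Quotient.out c) := by
      rw [← h1, hδ]
      ring
    -- a unit equals an element of the maximal ideal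
    let r : V := ∑ c : ConjClasses G, x.coeff (Quotient.out c) * ⟨a * δ (Quotient.out c), hint _⟩
    have hr : (r : ℂ) = 1 := by
      rw [← ha, h2, Finset.mul_sum]
      simp only [r]
      rw [AddSubmonoidClass.coe_finset_sum]
      refine Finset.sum_congr rfl fun c _ => ?_
      rw [iotaV_coeff]
      show ((x.coeff (Quotient.out c) : V) : ℂ) * (a * δ (Quotient.out c)) = _
      ring
    have hr1 : r = 1 := Subtype.ext hr
    have hr2 : IsLocalRing.residue V r = 0 := by
      simp only [r]
      rw [map_sum]
      refine Finset.sum_eq_zero fun c _ => ?_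
      have h3 : IsLocalRing.residue V (x.coeff (Quotient.out c)) = 0 := by
        rw [← piV_coeff, hπx]
        rfl
      rw [map_mul, h3, zero_mul]
    rw [hr1, map_one] at hr2
    exact one_ne_zero hr2

end Block

section Final

variable {G : Type*} [Group G] [Fintype G] {p : ℕ} {M : Ideal AlgInt}

open Classical in
/-- **Brandt**: a block with two irreducible characters has `Σ χ(1)² = 2 n²`. -/
theorem block_sum_sq_of_card_two (hM : IsPModular p M) {B : Set (IrrCharacter G)}
    (hB : IsPBlock M B) (hk : Nat.card B = 2) :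
    ∃ n : ℕ, 0 < n ∧
      (∑ χ : IrrCharacter G, if χ ∈ B then charDegree (χ : G → ℂ) ^ 2 else 0) = 2 * n ^ 2 := by
  classical
  haveI := isPModular_isPrime hM
  haveI : Fintype (ConjClasses G) := Fintype.ofFinite _
  obtain ⟨V, hVl, hVi⟩ := exists_val hM
  haveI : IsAlgClosed (IsLocalRing.ResidueField V) := isAlgClosed_residue V
  have hE : ∀ g, (blockElt B).coeff g ∈ V := fun g =>
    hVl _ (localCoeff_blockElt (isBlockUnion_of_isPBlock hB) g)
  set F := IsLocalRing.ResidueField V with hF
  haveI : FiniteDimensional F (MonoidAlgebra F G) :=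
    Module.Finite.of_basis (MonoidAlgebra.basis G F)
  -- the symmetrizing form
  let lam : MonoidAlgebra F G →ₗ[F] F :=
    { toFun := fun x => x.coeff 1
      map_add' := fun a b => by simp
      map_smul' := fun c a => by simp }
  have hlam : ∀ x, lam x = x.coeff 1 := fun x => rfl
  have hsymm : ∀ a b, lam (a * b) = lam (b * a) := by
    intro a b
    rw [hlam, hlam, coeff_mul_eq, coeff_mul_eq]
    refine (Fintype.sum_equiv (Equiv.inv G) _ _ fun h => ?_)
    simp [mul_comm]
  have hnd : ∀ a, (∀ b, lam (a * b) = 0) → a = 0 := by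
    intro a ha
    apply ext_coeff
    intro g
    have h1 := ha (MonoidAlgebra.single g⁻¹ 1)
    rw [hlam, coeff_mul_eq, Finset.sum_eq_single g] at h1
    · simpa using h1
    · intro h _ hh
      have h2 : h⁻¹ ≠ g⁻¹ := fun h3 => hh (inv_injective h3)
      simp [MonoidAlgebra.coeff_single, Finsupp.single_apply, h2.symm]
    · intro h
      exact absurd (Finset.mem_univ _) h
  have hnt : Nontrivial B := by
    rw [← Finite.one_lt_card_iff_nontrivial, hk]
    norm_num
  obtain ⟨⟨χ₁, h₁⟩, ⟨χ₂, h₂⟩, hne⟩ := exists_pair_ne B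
  have hne' : χ₁ ≠ χ₂ := fun h => hne (Subtype.ext h)
  obtain ⟨z, hz1, hz2, hz3⟩ := exists_nonscalar V hVl hVi hE h₁ h₂ hne'
  obtain ⟨n, hn, hfin⟩ := brandt_corner lam hsymm hnd (piV G V (eHat V hE)) (eBar_idem V hE)
    (eBar_comm V hE) ((finrank_center_le V hE).trans hk.le) hz1 hz2 hz3
    (fun f hf1 hf2 hff => idem_trivial V hVl hVi hE hB f hf1 hf2 hff)
  refine ⟨n, hn, ?_⟩
  rw [← hfin, corner_eq_range _ (eBar_idem V hE), finrank_range_eq V _ (eHat_idem V hE), iota_eHat,
    finrank_blockElt]

end Final

end Cfsg.Agent.Lib.Modular
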