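import Mathlib
import Cfsg.Agent.Lib.Modular.BlockCenter
import Cfsg.Agent.Lib.CharExtra.PReg
import Cfsg.Agent.Lib.CharExtra.CentralDefect
import Cfsg.Agent.Lib.BPair.CenBlock
import Cfsg.Agent.Lib.BPair.Sambale3
import Cfsg.Agent.Lib.Block.DefectZero

/-!
# Blocks with exactly two irreducible characters (Brandt)
-/

set_option autoImplicit false
set_option linter.unusedSectionVars false
set_option linter.unusedSimpArgs false
set_option linter.unusedVariables false
set_option linter.style.haveILetI false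
set_option linter.unnecessarySimpa false

open scoped ComplexConjugate

namespace Cfsg.Agent.Lib.Modular

open Module Cfsg Cfsg.Agent.Lib.Block Cfsg.Agent.Lib.Char Cfsg.Agent.Lib.CharExtra

/-- The arithmetic at the heart of Brandt's theorem. -/
theorem arith_two {p a g n d₁ d₂ : ℕ} (hp : p.Prime) (hcop : Nat.Coprime d₁ d₂) (hd₁ : 0 < d₁)
    (hd₂ : 0 < d₂) (hc : d₁ ^ 2 + d₂ ^ 2 ∣ p ^ a) (hg : 0 < g) (hn : 0 < n)
    (h : (g * d₁) ^ 2 + (g * d₂) ^ 2 = 2 * n ^ 2) : p = 2 ∧ d₁ = 1 ∧ d₂ = 1 := by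
  set c := d₁ ^ 2 + d₂ ^ 2 with hcdef
  have hc0 : c ≠ 0 := by positivity
  have h1 : g ^ 2 * c = 2 * n ^ 2 := by
    rw [← h, hcdef]
    ring
  have h2 : 2 ∣ c := by
    by_contra hodd
    have h3 : (g ^ 2 * c).factorization 2 = 2 * g.factorization 2 := by
      rw [Nat.factorization_mul (by positivity) hc0, Nat.factorization_pow, Finsupp.add_apply,
        Finsupp.smul_apply, Nat.factorization_eq_zero_of_not_dvd hodd]
      simp
    have h4 : (2 * n ^ 2).factorization 2 = 1 + 2 * n.factorization 2 := by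
      rw [Nat.factorization_mul (by norm_num) (by positivity), Nat.factorization_pow,
        Finsupp.add_apply, Finsupp.smul_apply, Nat.Prime.factorization_self Nat.prime_two]
      simp
    rw [h1, h4] at h3
    omega
  have hp2 : p = 2 := by
    have h3 : 2 ∣ p ^ a := h2.trans hc
    exact ((Nat.prime_dvd_prime_iff_eq Nat.prime_two hp).1 (Nat.prime_two.dvd_of_dvd_pow h3)).symm
  subst hp2
  obtain ⟨e, -, he⟩ := (Nat.dvd_prime_pow Nat.prime_two).1 hc
  have hodd₁ : ¬ 2 ∣ d₁ := by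
    intro h3
    have h4 : 2 ∣ d₂ ^ 2 := by
      have h5 : 2 ∣ d₁ ^ 2 := dvd_pow h3 (by norm_num)
      exact (Nat.dvd_add_right h5).1 h2
    have h5 : 2 ∣ d₂ := Nat.prime_two.dvd_of_dvd_pow h4
    have h6 := Nat.dvd_gcd h3 h5
    rw [hcop] at h6
    omega
  have hodd₂ : ¬ 2 ∣ d₂ := by
    intro h3
    have h4 : 2 ∣ d₁ ^ 2 := by
      have h5 : 2 ∣ d₂ ^ 2 := dvd_pow h3 (by norm_num)
      exact (Nat.dvd_add_left h5).1 h2
    have h5 : 2 ∣ d₁ := Nat.prime_two.dvd_of_dvd_pow h4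
    have h6 := Nat.dvd_gcd h5 h3
    rw [hcop] at h6
    omega
  have hsq : ∀ d : ℕ, ¬ 2 ∣ d → d ^ 2 % 4 = 1 := by
    intro d hd
    have h3 : d % 4 = 1 ∨ d % 4 = 3 := by omega
    rw [Nat.pow_mod]
    rcases h3 with h3 | h3 <;> rw [h3] <;> norm_num
  have hmod : c % 4 = 2 := by
    have h3 := hsq d₁ hodd₁
    have h4 := hsq d₂ hodd₂
    rw [hcdef]
    omega
  have he1 : e = 1 := by
    rcases e with _ | _ | e
    · rw [he] at hmod
      norm_num at hmod
    · rfl
    · exfalso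
      rw [he, pow_add, pow_add] at hmod
      have : 2 ^ e * 2 ^ 1 * 2 ^ 1 = 4 * 2 ^ e := by ring
      rw [this] at hmod
      simp at hmod
  have hc2 : d₁ ^ 2 + d₂ ^ 2 = 2 := by
    rw [← hcdef, he, he1]
    norm_num
  have h3 : d₁ ≤ 1 := by
    by_contra h4
    have : 2 ≤ d₁ := by omega
    nlinarith
  have h4 : d₂ ≤ 1 := by
    by_contra h5
    have : 2 ≤ d₂ := by omega
    nlinarith
  exact ⟨rfl, by omega, by omega⟩

section Block

variable {G : Type*} [Group G] [Fintype G] {p : ℕ} [hp : Fact p.Prime] {M : Ideal AlgInt}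

theorem sum_if_pair {I R : Type*} [Fintype I] [AddCommMonoid R] {S : Set I} {a b : I}
    {d : DecidablePred (· ∈ S)} (hS : S = {a, b}) (hne : a ≠ b) (f : I → R) :
    (∑ χ : I, @ite _ (χ ∈ S) (d χ) (f χ) 0) = f a + f b := by
  classical
  rw [← Finset.sum_filter]
  have h1 : Finset.univ.filter (fun χ => χ ∈ S) = ({a, b} : Finset I) := by
    ext x
    simp [hS]
  rw [h1, Finset.sum_pair hne]

/-- A member of a block with at least two members has degree not divisible by the full `p`-part. -/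
theorem not_pow_dvd_of_ne (hM : IsPModular p M) {B : Set (IrrCharacter G)} (hB : IsPBlock M B)
    {χ ψ : IrrCharacter G} (hχ : χ ∈ B) (hψ : ψ ∈ B) (hne : χ ≠ ψ) :
    ¬ p ^ (Nat.card G).factorization p ∣ charDegree (χ : G → ℂ) := by
  classical
  haveI := isPModular_isPrime hM
  intro hdvd
  have h1 : blockOf M (χ : G → ℂ) = {χ} := by
    refine blockOf_eq_singleton_of_not_dvd hM χ fun h2 => ?_
    obtain ⟨m, hm⟩ := charDegree_dvd_card χ.2
    have hG : Nat.card G ≠ 0 := Nat.card_pos.ne'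
    have hχ0 : charDegree (χ : G → ℂ) ≠ 0 := by
      intro h3
      rw [h3, zero_mul] at hm
      exact hG hm
    have hm0 : m ≠ 0 := by
      intro h3
      rw [h3, mul_zero] at hm
      exact hG hm
    have h3 : Nat.card G / charDegree (χ : G → ℂ) = m := by
      rw [hm, Nat.mul_div_cancel_left _ (Nat.pos_of_ne_zero hχ0)]
    rw [h3] at h2
    have h4 : (Nat.card G).factorization p =
        (charDegree (χ : G → ℂ)).factorization p + m.factorization p := by
      rw [hm, Nat.factorization_mul hχ0 hm0, Finsupp.add_apply]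
    have h5 := (Nat.Prime.pow_dvd_iff_le_factorization hp.out hχ0).1 hdvd
    have h6 : 1 ≤ m.factorization p := (Nat.Prime.dvd_iff_one_le_factorization hp.out hm0).1 h2
    omega
  have h2 : B = blockOf M (χ : G → ℂ) := blockOf_eq_of_mem hB hχ
  rw [h1] at h2
  rw [h2] at hψ
  exact hne (Set.mem_singleton_iff.1 hψ).symm

open Classical in
/-- **Brandt**: a block with exactly two members has defect group of order two. -/
theorem card_defect_of_card_two (hM : IsPModular p M) {B : Set (IrrCharacter G)} (hB : IsPBlock M B)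
    {D : Subgroup G} (hD : IsDefectGroup p M B D) (hk : Nat.card B = 2) : Nat.card D = 2 := by
  classical
  haveI := isPModular_isPrime hM
  obtain ⟨n, hn, hsum⟩ := block_sum_sq_of_card_two hM hB hk
  have hk' : B.ncard = 2 := by rw [← Nat.card_coe_set_eq]; exact hk
  obtain ⟨χ₁, χ₂, hne, hBeq⟩ := Set.ncard_eq_two.1 hk'
  have h₁ : χ₁ ∈ B := by rw [hBeq]; simp
  have h₂ : χ₂ ∈ B := by rw [hBeq]; simp
  set a := (Nat.card G).factorization p with ha
  set m₁ := charDegree (χ₁ : G → ℂ) with hm₁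
  set m₂ := charDegree (χ₂ : G → ℂ) with hm₂
  have hm₁0 : 0 < m₁ := by
    obtain ⟨q, hq⟩ := charDegree_dvd_card χ₁.2
    refine Nat.pos_of_ne_zero fun h3 => ?_
    rw [← hm₁, h3, zero_mul] at hq
    exact Nat.card_pos.ne' hq
  have hm₂0 : 0 < m₂ := by
    obtain ⟨q, hq⟩ := charDegree_dvd_card χ₂.2
    refine Nat.pos_of_ne_zero fun h3 => ?_
    rw [← hm₂, h3, zero_mul] at hq
    exact Nat.card_pos.ne' hq
  -- sums over the block
  rw [sum_if_pair hBeq hne] at hsum
  have hsing : ∀ y : G, p ∣ orderOf y → (m₁ : ℂ) * (χ₁ : G → ℂ) y + (m₂ : ℂ) * (χ₂ : G → ℂ) y = 0 := by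
    intro y hy
    have h3 := sum_block_degree_eq_zero hM hB hy
    rw [sum_if_pair hBeq hne] at h3
    exact h3
  have hreg : ∀ χ ∈ B, ∀ x : G, regPart p (χ : G → ℂ) x =
      (regCoeff p χ χ₁ : ℂ) * (χ₁ : G → ℂ) x + (regCoeff p χ χ₂ : ℂ) * (χ₂ : G → ℂ) x := by
    intro χ hχ x
    have h3 := regPart_eq_sum_block hM hB hχ x
    rw [sum_if_pair hBeq hne] at h3
    exact h3
  -- coprime parts
  set g := Nat.gcd m₁ m₂ with hg
  have hg0 : 0 < g := Nat.gcd_pos_of_pos_left _ hm₁0
  obtain ⟨d₁, hd₁⟩ : g ∣ m₁ := Nat.gcd_dvd_left _ _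
  obtain ⟨d₂, hd₂⟩ : g ∣ m₂ := Nat.gcd_dvd_right _ _
  have hd₁0 : 0 < d₁ := by
    refine Nat.pos_of_ne_zero fun h3 => ?_
    rw [h3, mul_zero] at hd₁
    omega
  have hd₂0 : 0 < d₂ := by
    refine Nat.pos_of_ne_zero fun h3 => ?_
    rw [h3, mul_zero] at hd₂
    omega
  have hcop : Nat.Coprime d₁ d₂ := by
    have h3 := Nat.coprime_div_gcd_div_gcd (m := m₁) (n := m₂) hg0
    rw [← hg] at h3
    rwa [hd₁, hd₂, Nat.mul_div_cancel_left _ hg0, Nat.mul_div_cancel_left _ hg0] at h3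
  have hgC : (g : ℂ) ≠ 0 := by exact_mod_cast hg0.ne'
  have hsing' : ∀ y : G, p ∣ orderOf y → (d₁ : ℂ) * (χ₁ : G → ℂ) y + (d₂ : ℂ) * (χ₂ : G → ℂ) y = 0 := by
    intro y hy
    have h3 := hsing y hy
    rw [hd₁, hd₂] at h3
    push_cast at h3
    apply mul_left_cancel₀ hgC
    rw [mul_zero, ← h3]
    ring
  -- a `p`-singular element on which the characters do not vanish
  obtain ⟨y₀, hy₀, hy₀ne⟩ : ∃ y₀ : G, p ∣ orderOf y₀ ∧ (χ₁ : G → ℂ) y₀ ≠ 0 := by
    by_contra hall
    push Not at hall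
    exact not_pow_dvd_of_ne hM hB h₁ h₂ hne
      (Cfsg.Agent.Lib.Block.pow_dvd_degree_of_vanish (IsIrrCharacter.isCharacter χ₁.2) hall)
  -- the multiplicity relations
  have hrel : ∀ χ ∈ B, ∃ t : ℤ, regCoeff p χ χ₁ = t * d₁ ∧ regCoeff p χ χ₂ = t * d₂ := by
    intro χ hχ
    set r₁ := regCoeff p χ χ₁ with hr₁
    set r₂ := regCoeff p χ χ₂ with hr₂
    have h3 : regPart p (χ : G → ℂ) y₀ = 0 := by
      simp [regPart, hy₀]
    rw [hreg χ hχ y₀] at h3
    have h4 : (((r₁ * d₂ - r₂ * d₁ : ℤ)) : ℂ) * (χ₁ : G → ℂ) y₀ = 0 := by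
      push_cast
      have h5 := hsing' y₀ hy₀
      linear_combination (d₂ : ℂ) * h3 - (r₂ : ℂ) * h5
    have h5 : r₁ * d₂ - r₂ * d₁ = 0 := by
      have := (mul_eq_zero.1 h4).resolve_right hy₀ne
      exact_mod_cast this
    have h6 : r₁ * d₂ = r₂ * d₁ := by linarith
    have hcop' : IsCoprime (d₁ : ℤ) (d₂ : ℤ) := Nat.isCoprime_iff_coprime.2 hcop
    have h7 : (d₁ : ℤ) ∣ r₁ := by
      refine hcop'.dvd_of_dvd_mul_right ?_
      rw [h6]
      exact Dvd.intro_left _ rfl
    obtain ⟨t, ht⟩ := h7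
    refine ⟨t, by rw [ht]; ring, ?_⟩
    have hd₁Z : (d₁ : ℤ) ≠ 0 := by exact_mod_cast hd₁0.ne'
    apply mul_right_cancel₀ hd₁Z
    rw [← h6, ht]
    ring
  -- values at the identity
  set c := d₁ ^ 2 + d₂ ^ 2 with hc
  have hvalue : ∀ χ ∈ B, ∀ m : ℕ, charDegree (χ : G → ℂ) = g * m →
      ∃ t : ℤ, ((p ^ a * m : ℕ) : ℤ) = t * (c : ℤ) := by
    intro χ hχ m hm
    obtain ⟨t, h3, h4⟩ := hrel χ hχ
    refine ⟨t, ?_⟩
    have h5 := hreg χ hχ 1
    have h6 : ¬ p ∣ orderOf (1 : G) := by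
      simpa using hp.out.one_lt.ne'
    have h7 : regPart p (χ : G → ℂ) 1 = ((p ^ a : ℕ) : ℂ) * (χ : G → ℂ) 1 := by
      show (if p ∣ orderOf (1 : G) then (0 : ℂ) else _) = _
      rw [if_neg h6]
    rw [h7, h3, h4, map_one_eq_charDegree (IsIrrCharacter.isCharacter χ.2),
      map_one_eq_charDegree (IsIrrCharacter.isCharacter χ₁.2),
      map_one_eq_charDegree (IsIrrCharacter.isCharacter χ₂.2), hm, ← hm₁, ← hm₂, hd₁, hd₂] at h5
    push_cast at h5
    have h8 : ((p ^ a * m : ℕ) : ℂ) = ((t * (c : ℤ) : ℤ) : ℂ) := by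
      apply mul_left_cancel₀ hgC
      push_cast
      rw [hc]
      push_cast
      linear_combination h5
    exact_mod_cast h8
  have hdvd : c ∣ p ^ a := by
    obtain ⟨t₁, ht₁⟩ := hvalue χ₁ h₁ d₁ hd₁
    obtain ⟨t₂, ht₂⟩ := hvalue χ₂ h₂ d₂ hd₂
    have h3 : (c : ℤ) ∣ ((p ^ a * d₁ : ℕ) : ℤ) := ⟨t₁, by rw [ht₁]; ring⟩
    have h4 : (c : ℤ) ∣ ((p ^ a * d₂ : ℕ) : ℤ) := ⟨t₂, by rw [ht₂]; ring⟩
    have h5 : c ∣ p ^ a * d₁ := Int.natCast_dvd_natCast.1 h3
    have h6 : c ∣ p ^ a * d₂ := Int.natCast_dvd_natCast.1 h4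
    have h7 := Nat.dvd_gcd h5 h6
    rw [Nat.gcd_mul_left, hcop, mul_one] at h7
    exact h7
  obtain ⟨hp2, hd₁1, hd₂1⟩ := arith_two hp.out hcop hd₁0 hd₂0 hdvd hg0 hn (by
    rw [← hd₁, ← hd₂]
    exact hsum)
  subst hd₁1
  subst hd₂1
  simp only [mul_one] at hd₁ hd₂
  -- both degrees equal `g`
  have hΦ := IsCharacter.add (IsIrrCharacter.isCharacter χ₁.2) (IsIrrCharacter.isCharacter χ₂.2)
  have hvan : ∀ y : G, p ∣ orderOf y → ((χ₁ : G → ℂ) + (χ₂ : G → ℂ)) y = 0 := by
    intro y hy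
    have := hsing' y hy
    simpa using this
  have h3 := Cfsg.Agent.Lib.Block.pow_dvd_degree_of_vanish hΦ hvan
  rw [charDegree_add (IsIrrCharacter.isCharacter χ₁.2) (IsIrrCharacter.isCharacter χ₂.2), ← hm₁, ← hm₂,
    hd₁, hd₂, ← ha] at h3
  have hnot := not_pow_dvd_of_ne hM hB h₁ h₂ hne
  rw [← hm₁, hd₁, ← ha] at hnot
  have hfac : a = g.factorization p + 1 := by
    have h4 : g + g = 2 * g := by ring
    rw [h4, hp2] at h3
    have h5 : a ≤ (2 * g).factorization 2 :=
      (Nat.Prime.pow_dvd_iff_le_factorization Nat.prime_two (by positivity)).1 h3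
    rw [Nat.factorization_mul (by norm_num) hg0.ne', Finsupp.add_apply,
      Nat.Prime.factorization_self Nat.prime_two] at h5
    have h6 : ¬ a ≤ g.factorization 2 := by
      intro h7
      rw [hp2] at hnot
      exact hnot ((Nat.Prime.pow_dvd_iff_le_factorization Nat.prime_two hg0.ne').2 h7)
    rw [hp2]
    omega
  have hdef : blockDefect p B = 1 := by
    unfold blockDefect
    have h4 : (fun χ : IrrCharacter G => (charDegree (χ : G → ℂ)).factorization p) '' B =
        {g.factorization p} := by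
      rw [hBeq]
      ext x
      simp only [Set.mem_image, Set.mem_insert_iff, Set.mem_singleton_iff]
      constructor
      · rintro ⟨χ, rfl | rfl, rfl⟩
        · rw [← hm₁, hd₁]
        · rw [← hm₂, hd₂]
      · rintro rfl
        exact ⟨χ₁, Or.inl rfl, by rw [← hm₁, hd₁]⟩
    rw [h4, csInf_singleton, ← ha, hfac]
    omega
  rw [card_defect_group hM hB hD, hdef, hp2, pow_one]

/-- The converse: defect group of order two gives exactly two members. -/
theorem card_two_of_card_defect (hM : IsPModular p M) {B : Set (IrrCharacter G)} (hB : IsPBlock M B)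
    {D : Subgroup G} (hD : IsDefectGroup p M B D) (hcard : Nat.card D = 2) : Nat.card B = 2 := by
  classical
  haveI := isPModular_isPrime hM
  have hcd := card_defect_group hM hB hD
  have hdefect : p ^ blockDefect p B = 2 := by rw [← hcd, hcard]
  have hDp : IsPGroup p D := IsPGroup.of_card hcd
  have hp2 : p = 2 := by
    have h1 : p ∣ 2 := by
      rw [← hdefect]
      refine dvd_pow_self p fun h0 => ?_
      rw [h0, pow_zero] at hdefect
      omega
    exact (Nat.prime_dvd_prime_iff_eq hp.out Nat.prime_two).1 h1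
  -- the involution
  obtain ⟨t', ht'⟩ := (Nat.card_eq_two_iff' (1 : D)).1 hcard
  have ht'1 : t' ≠ 1 := ht'.1
  have hD2 : ∀ d : D, d = 1 ∨ d = t' := by
    intro d
    by_cases hd : d = 1
    · exact Or.inl hd
    · exact Or.inr (ht'.2 d hd)
  set t : G := (t' : G) with ht
  have htD : t ∈ D := t'.2
  have hD3 : ∀ d ∈ D, d = 1 ∨ d = t := by
    intro d hd
    rcases hD2 ⟨d, hd⟩ with h | h
    · exact Or.inl (congrArg Subtype.val h)
    · exact Or.inr (congrArg Subtype.val h)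
  have htc : ∀ d ∈ D, d * t = t * d := by
    intro d hd
    rcases hD3 d hd with rfl | rfl <;> simp
  have hDC : D ≤ Subgroup.centralizer ({t} : Set G) := by
    intro d hd
    rw [Subgroup.mem_centralizer_singleton_iff]
    exact htc d hd
  obtain ⟨f, hfB, hfd⟩ := Cfsg.Agent.Lib.BPair.exists_centralizer_block hM hB hD htD htc
  have hf : IsPBlock M f := hfB.1
  obtain ⟨P, hP⟩ := Cfsg.Agent.Lib.Block.exists_isDefectGroup hM hf
  have hcP : Nat.card P = 2 := by
    rw [card_defect_group hM hf hP, hfd, hdefect]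
  have hDcZ : D.subgroupOf (Subgroup.centralizer ({t} : Set G)) ≤
      Subgroup.center (Subgroup.centralizer ({t} : Set G)) := by
    rintro ⟨d, hd'⟩ hd
    rw [Subgroup.mem_center_iff]
    rintro ⟨c, hc⟩
    apply Subtype.ext
    have hd2 : d ∈ D := hd
    rcases hD3 d hd2 with rfl | rfl
    · simp
    · have := Subgroup.mem_centralizer_singleton_iff.1 hc
      exact this
  haveI hDcN : (D.subgroupOf (Subgroup.centralizer ({t} : Set G))).Normal := by
    refine ⟨fun c hc g => ?_⟩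
    have h1 := (Subgroup.mem_center_iff.mp (hDcZ hc)) g
    rw [h1]
    simpa using hc
  have hDcP : IsPGroup p (D.subgroupOf (Subgroup.centralizer ({t} : Set G))) :=
    hDp.comap_of_injective (Subgroup.centralizer ({t} : Set G)).subtype
      (Subgroup.centralizer ({t} : Set G)).subtype_injective
  have hDcle : D.subgroupOf (Subgroup.centralizer ({t} : Set G)) ≤ P := normal_le_defect hM hDcP hf hP
  have hDccard : Nat.card (D.subgroupOf (Subgroup.centralizer ({t} : Set G))) = 2 := by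
    rw [← hcard]
    exact Nat.card_congr (Subgroup.subgroupOfEquivOfLe hDC).toEquiv
  have hDceq : D.subgroupOf (Subgroup.centralizer ({t} : Set G)) = P :=
    Subgroup.eq_of_le_of_card_ge hDcle (by rw [hDccard, hcP])
  have hDcdef : IsDefectGroup p M f (D.subgroupOf (Subgroup.centralizer ({t} : Set G))) := by
    rw [hDceq]
    exact hP
  have hl : blockRank p f ≤ 2 := by
    rw [blockRank_eq_one_of_central hM hf hDcdef hDcZ]
    norm_num
  have hup := Cfsg.Agent.Lib.BPair.sambale_S4539 hM hB hD htD htc hfB hDcdef hl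
  rw [hdefect] at hup
  refine le_antisymm hup ?_
  by_contra hlt
  push Not at hlt
  have hss : Subsingleton B := Finite.card_le_one_iff_subsingleton.1 (by omega)
  obtain ⟨χ, hχ⟩ := IsPBlock_nonempty hB
  have hBχ : B = {χ} := by
    ext ψ
    constructor
    · intro hψ
      exact congrArg Subtype.val (Subsingleton.elim (⟨ψ, hψ⟩ : B) ⟨χ, hχ⟩)
    · rintro rfl
      exact hχ
  have h1 : blockOf M (χ : G → ℂ) = {χ} := by
    rw [← blockOf_eq_of_mem hB hχ]
    exact hBχ
  have h2 := Cfsg.Agent.Lib.Block.pow_dvd_degree_of_vanish (IsIrrCharacter.isCharacter χ.2)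
    (fun y hy => eq_zero_of_blockOf_eq_singleton hM χ h1 hy)
  have hχ0 : charDegree (χ : G → ℂ) ≠ 0 := by
    obtain ⟨q, hq⟩ := charDegree_dvd_card χ.2
    intro h3
    rw [h3, zero_mul] at hq
    exact Nat.card_pos.ne' hq
  have h3 := (Nat.Prime.pow_dvd_iff_le_factorization hp.out hχ0).1 h2
  have h4 : blockDefect p B = 0 := by
    unfold blockDefect
    have h5 : (fun χ : IrrCharacter G => (charDegree (χ : G → ℂ)).factorization p) '' B =
        {(charDegree (χ : G → ℂ)).factorization p} := by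
      rw [hBχ, Set.image_singleton]
    rw [h5, csInf_singleton]
    omega
  rw [h4, pow_zero] at hdefect
  omega

end Block

end Cfsg.Agent.Lib.Modular
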